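import Cfsg.Agent.H45.Thin.Base
import Cfsg.Agent.ETable.ExcTorus
import Cfsg.Agent.ChevalleyStructure.TwF4.TwGen
import Cfsg.Agent.ChevalleyStructure.TwF4.Torus
import Cfsg.Agent.ChevalleyStructure.D4H1

/-!
# Thin groups (S2028): the exceptional groups of small rank (helper45)

* `g2` : `G₂(q)`, `q ≥ 3`;
* `d4` : `³D₄(q)`, `q` even, `q ≥ 4`;
* `f4` : `²F₄(q)`, `q ≥ 8`.
-/

set_option autoImplicit false

namespace Cfsg.Agent.H45.Thin.ExcRows

open Cfsg Cfsg.Lie Subgroup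
open Cfsg.Agent.ETable (Wit)
open Cfsg.Agent.ETable.Exc
open Cfsg.Agent.ChevalleyStructure Cfsg.Agent.ChevalleyStructure.Elts

universe u

/-! ### `G₂(q)` -/

theorem g2_data : chevG2.neg 7 < chevG2.nroots ∧ chevG2.neg 11 < chevG2.nroots ∧ 7 < chevG2.nroots ∧
    11 < chevG2.nroots := by decide +kernel

theorem g2_so : SO chevG2 7 11 := by decide +kernel

theorem g2_cart : chevG2.cartan 0 7 = 2 ∧ chevG2.cartan 0 11 = 0 ∧ chevG2.cartan 1 11 = 1 ∧
    chevG2.cartan 0 6 = -3 ∧ chevG2.simple 0 = 7 ∧ chevG2.simple 1 = 6 ∧ 0 < chevG2.rank ∧ 1 < chevG2.rank ∧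
    6 < chevG2.nroots := by
  decide +kernel

/-- `G₂(q)`, `q` odd -/
theorem g2_odd (F : Type u) [Field F] [Finite F] (h2F : (2 : F) ≠ 0) :
    ∃ p, p.Prime ∧ p ≠ 2 ∧ Wit p 2 (chevG2.group F) := by
  obtain ⟨p, hch⟩ := CharP.exists F
  have hp : p.Prime := by
    rcases CharP.char_is_prime_or_zero F p with h | h
    · exact h
    · subst h
      have := CharP.charP_to_charZero F
      exact absurd (inferInstance : Finite F) (not_finite_iff_infinite.2 (Infinite.of_injective (fun n : ℕ => (n : F)) Nat.cast_injective))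
  have hpF : (p : F) = 0 := CharP.cast_eq_zero F p
  have hp2 : p ≠ 2 := by
    rintro rfl
    exact h2F (by exact_mod_cast hpF)
  refine ⟨p, hp, hp2, ?_⟩
  obtain ⟨a7, a11, a111, a6, s0, s1, r0, r1, l6⟩ := g2_cart
  obtain ⟨l7n, l11n, l7, l11⟩ := g2_data
  have hD := inList_G2
  obtain ⟨so1, so2, so3, so4⟩ := g2_so
  have hneg : (-1 : F) ≠ 0 := neg_ne_zero.2 one_ne_zero
  set t : chevG2.group F := ⟨hG hD (chevG2.simple 0) (-1), hG_mem_group hD _ _⟩ with ht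
  have hc7 : ∀ u : F, hG hD (chevG2.simple 0) (-1) * xG hD 7 u = xG hD 7 u * hG hD (chevG2.simple 0) (-1) :=
    hG_comm_xG hD r0 l7 hneg (by rw [a7]; norm_num)
  have hc11 : ∀ u : F, hG hD (chevG2.simple 0) (-1) * xG hD 11 u = xG hD 11 u * hG hD (chevG2.simple 0) (-1) :=
    hG_comm_xG hD r0 l11 hneg (by rw [a11]; norm_num)
  have ht1 : t ≠ 1 := by
    intro h
    have h1 := congrArg (fun z : chevG2.group F =>
      ((z : GL chevG2.Idx F) : Matrix chevG2.Idx chevG2.Idx F) (Sum.inr ⟨6, l6⟩) (Sum.inr ⟨6, l6⟩)) h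
    have h2 : ((t : GL chevG2.Idx F) : Matrix chevG2.Idx chevG2.Idx F) (Sum.inr ⟨6, l6⟩) (Sum.inr ⟨6, l6⟩) =
        (-1 : F) ^ (chevG2.cartan 0 6) := hG_entry hD r0 hneg ⟨6, l6⟩
    have h3 : (((1 : chevG2.group F) : GL chevG2.Idx F) : Matrix chevG2.Idx chevG2.Idx F) (Sum.inr ⟨6, l6⟩)
        (Sum.inr ⟨6, l6⟩) = 1 := by
      rw [Subgroup.coe_one, Units.val_one, Matrix.one_apply_eq]
    have h5 : (-1 : F) ^ (chevG2.cartan 0 6) = 1 := h2.symm.trans (h1.trans h3)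
    rw [a6] at h5
    have h4 : (2 : F) = 0 := by
      have : (-1 : F) ^ (-3 : ℤ) = -1 := by norm_num
      rw [this] at h5
      linear_combination -h5
    exact h2F h4
  have htt : t ^ 2 = 1 := by
    apply Subtype.ext
    rw [Subgroup.coe_pow, Subgroup.coe_one, pow_two]
    show hG hD (chevG2.simple 0) (-1) * hG hD (chevG2.simple 0) (-1) = 1
    rw [hG_mul hD r0 hneg hneg]
    norm_num
    exact hG_one hD r0
  let X : ℕ → F → chevG2.group F := fun r a => ⟨xG hD r a, xG_mem_group hD _ _⟩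
  have hpow : ∀ r, X r 1 ^ p = 1 := by
    intro r
    apply Subtype.ext
    show xG hD r 1 ^ p = 1
    rw [xG_pow, hpF, xG_zero]
  refine Wit.of_family hp ![X 7 1, X 11 1] ![X (chevG2.neg 7) 1, X (chevG2.neg 11) 1] ?_ ?_ ?_ ?_ (zpowers t) ?_ ?_ ?_
  · have h1 : Commute (X 7 1) (X 11 1) := Subtype.ext (comm_of_so hD so1 1 1)
    intro i j
    fin_cases i <;> fin_cases j
    · exact Commute.refl _
    · exact h1
    · exact h1.symm
    · exact Commute.refl _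
  · intro i
    fin_cases i
    · exact hpow 7
    · exact hpow 11
  · intro i
    fin_cases i
    · intro h
      exact not_comm_odd hD l7 h2F (congrArg (fun z : chevG2.group F => (z : GL chevG2.Idx F)) h.eq)
    · intro h
      exact not_comm_odd hD l11 h2F (congrArg (fun z : chevG2.group F => (z : GL chevG2.Idx F)) h.eq)
  · intro i j hij
    fin_cases i <;> fin_cases j
    · exact absurd rfl hij
    · exact Subtype.ext (comm_of_so hD so2 1 1)
    · exact Subtype.ext (comm_of_so hD so3 1 1).symm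
    · exact absurd rfl hij
  · rintro ⟨_, j, rfl⟩
    refine ⟨1, Subtype.ext ?_⟩
    show (t ^ j) ^ (2 ^ 1) = 1
    rw [← zpow_natCast, ← zpow_mul, mul_comm, zpow_mul, zpow_natCast]
    norm_num
    rw [htt, one_zpow]
  · rw [Ne, zpowers_eq_bot]
    exact ht1
  · intro i
    fin_cases i
    · exact mem_norm_of_comm (Subtype.ext (hc7 1).symm)
    · exact mem_norm_of_comm (Subtype.ext (hc11 1).symm)

/-- an element of odd prime order in `Fˣ`, `|F| = 2 ^ k ≥ 4` -/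
theorem exists_odd_unit (F : Type u) [Field F] [Finite F] (h2F : (2 : F) = 0) (h : 2 < Nat.card F) :
    ∃ (p : ℕ) (c : F), p.Prime ∧ p ≠ 2 ∧ c ^ p = 1 ∧ c ≠ 1 := by
  have := Fintype.ofFinite F
  have hch : CharP F 2 := CharTwo.of_one_ne_zero_of_two_eq_zero one_ne_zero h2F
  obtain ⟨⟨n, hn⟩, -, hc⟩ := FiniteField.card F 2
  rw [← Nat.card_eq_fintype_card] at hc
  have hodd : Odd (Nat.card F - 1) := by
    rw [hc]
    exact Nat.Even.sub_odd Nat.one_le_two_pow (even_two.pow_of_ne_zero hn.ne') odd_one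
  have h1 : Nat.card F - 1 ≠ 1 := by omega
  obtain ⟨p, hp, hd⟩ := Nat.exists_prime_and_dvd h1
  obtain ⟨c, hc1, hc2⟩ := exists_unit_of_dvd F hp hd
  refine ⟨p, c, hp, ?_, hc1, hc2⟩
  rintro rfl
  exact (Nat.not_even_iff_odd.2 hodd) (even_iff_two_dvd.2 hd)

/-- `G₂(q)`, `q` even, `q ≥ 4` -/
theorem g2_even (F : Type u) [Field F] [Finite F] (h2F : (2 : F) = 0) (h : 2 < Nat.card F) :
    ∃ p, p.Prime ∧ p ≠ 2 ∧ Wit p 2 (chevG2.group F) := by
  obtain ⟨p, c, hp, hp2, hc, hc1⟩ := exists_odd_unit F h2F h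
  refine ⟨p, hp, hp2, ?_⟩
  obtain ⟨a7, a11, a111, a6, s0, s1, r0, r1, l6⟩ := g2_cart
  obtain ⟨l7n, l11n, l7, l11⟩ := g2_data
  have hD := inList_G2
  have hc0 : c ≠ 0 := by
    rintro rfl
    rw [zero_pow hp.ne_zero] at hc
    exact zero_ne_one hc
  refine wit_torus hD (RingHom.id F) h2F hp hp2 hc hc1 rfl ![hG hD (chevG2.simple 0) c, hG hD (chevG2.simple 1) c]
    ![fun s => chevG2.cartan 0 s, fun s => chevG2.cartan 1 s] ?_ ?_ ![7, 11] ?_ ?_ ?_ ?_ 11 l11 ?_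
  · intro i
    fin_cases i
    · exact tor_hG hD r0 hc0
    · exact tor_hG hD r1 hc0
  · intro i
    fin_cases i
    · exact hG_mem_group hD _ _
    · exact hG_mem_group hD _ _
  · intro i
    fin_cases i
    · exact l7
    · exact l11
  · intro i
    exact xG_mem_group hD _ _
  · intro i j hij
    fin_cases i <;> fin_cases j
    · exact absurd hij (lt_irrefl _)
    · exact a11
    · exact absurd hij (by decide)
    · exact absurd hij (lt_irrefl _)
  · intro i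
    fin_cases i
    · exact Or.inr (Or.inr (Or.inl a7))
    · exact Or.inl a111
  · intro t _
    exact xG_mem_group hD _ _

/-- **`G₂(q)`, `q ≥ 3`.** -/
theorem g2 (F : Type u) [Field F] [Finite F] (h : 2 < Nat.card F) :
    ∃ p, p.Prime ∧ p ≠ 2 ∧ Wit p 2 (chevG2.group F) := by
  by_cases h2 : (2 : F) = 0
  · exact g2_even F h2 h
  · exact g2_odd F h2


/-! ### `³D₄(q)` -/

section D4

open Cfsg.Agent.ChevalleyStructure.D4H1 Cfsg.Agent.ChevalleyStructure.D4Cols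
open Cfsg.Agent.ChevalleyStructure.D4Torus

theorem d4_data : (14 < chevD4.nroots ∧ 18 < chevD4.nroots ∧ 23 < chevD4.nroots) ∧
    chevD4.simple 0 = 18 ∧ chevD4.simple 1 = 14 ∧ chevD4.simple 2 = 13 ∧ chevD4.simple 3 = 12 ∧
    chevD4.cartan 0 18 = 2 ∧ chevD4.cartan 1 18 = -1 ∧ chevD4.cartan 2 18 = 0 ∧ chevD4.cartan 3 18 = 0 ∧
    chevD4.cartan 0 23 = 0 ∧ chevD4.cartan 1 23 = 1 ∧ chevD4.cartan 2 23 = 0 ∧ chevD4.cartan 3 23 = 0 ∧
    0 < chevD4.rank ∧ 1 < chevD4.rank ∧ 2 < chevD4.rank ∧ 3 < chevD4.rank := by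
  decide +kernel

theorem wU_hWord_eq_hG {K : Type u} [Field K] (r : ℕ) (c : K) :
    wU (chevD4.hWord r c) = hG inList_D4 r c :=
  Units.ext (by rw [coe_wU, coe_hG]; rfl)

/-- **`³D₄(q)`, `q` even, `q ≥ 4`.** -/
theorem d4 (K : Type u) [Field K] [Finite K] (q : ℕ) (h2 : (2 : K) = 0) (hK : Nat.card K = q ^ 3) (hq : 2 < q) :
    ∃ p, p.Prime ∧ p ≠ 2 ∧ Wit p 2 (twistedD4 K q) := by
  have := Fintype.ofFinite K
  have hch : CharP K 2 := CharTwo.of_one_ne_zero_of_two_eq_zero one_ne_zero h2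
  obtain ⟨⟨n, hn⟩, -, hc⟩ := FiniteField.card K 2
  rw [← Nat.card_eq_fintype_card, hK] at hc
  have hc' : q ^ 3 = 2 ^ n := hc
  obtain ⟨a, -, ha⟩ := (Nat.dvd_prime_pow Nat.prime_two).1 (show q ∣ 2 ^ n by
    rw [← hc']
    exact dvd_pow_self q (by norm_num))
  have ha0 : a ≠ 0 := by
    rintro rfl
    rw [ha] at hq
    norm_num at hq
  have hodd : Odd (q - 1) := by
    rw [ha]
    exact Nat.Even.sub_odd Nat.one_le_two_pow (even_two.pow_of_ne_zero ha0) odd_one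
  obtain ⟨p, hp, hd⟩ := Nat.exists_prime_and_dvd (show q - 1 ≠ 1 by omega)
  have hp2 : p ≠ 2 := by
    rintro rfl
    exact (Nat.not_even_iff_odd.2 hodd) (even_iff_two_dvd.2 hd)
  obtain ⟨c, hc1, hc2⟩ := exists_unit_of_dvd K hp (by
    rw [hK]
    exact hd.trans (Nat.sub_one_dvd_pow_sub_one q 3))
  have hc0 : c ≠ 0 := by
    rintro rfl
    rw [zero_pow hp.ne_zero] at hc1
    exact zero_ne_one hc1
  let φ : K →+* K := iterateFrobenius K 2 a
  have hφ : ∀ x, φ x = x ^ q := fun x => by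
    show iterateFrobenius K 2 a x = _
    rw [iterateFrobenius_def, ha]
  have hφc : φ c = c := by
    obtain ⟨k, hk⟩ := hd
    have h1 : q = p * k + 1 := by omega
    rw [hφ, h1, pow_succ, pow_mul, hc1, one_pow, one_mul]
  refine ⟨p, hp, hp2, ?_⟩
  obtain ⟨⟨l14, l18, l23⟩, s0, s1, s2, s3, a018, a118, a218, a318, a023, a123, a223, a323, r0, r1, r2, r3⟩ := d4_data
  have hD := inList_D4
  -- the two torus elements
  have mx : hG hD 18 c * hG hD 13 c * hG hD 12 c ∈ twistedD4 K q := by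
    have h := h_outer_mem hφ c
    rw [hφc, hφc, wU_hWord_eq_hG, wU_hWord_eq_hG, wU_hWord_eq_hG] at h
    exact h
  have my : hG hD 14 c ∈ twistedD4 K q := by
    have h := h14_mem hφ hφc
    rw [wU_hWord_eq_hG] at h
    exact h
  have tx : Tor chevD4 (fun s => (fun s => chevD4.cartan 0 s + chevD4.cartan 2 s) s + chevD4.cartan 3 s) c
      (hG hD 18 c * hG hD 13 c * hG hD 12 c) :=
    ((tor_hG' hD r0 s0 hc0).mul (tor_hG' hD r2 s2 hc0)).mul (tor_hG' hD r3 s3 hc0)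
  have ty : Tor chevD4 (fun s => chevD4.cartan 1 s) c (hG hD 14 c) := tor_hG' hD r1 s1 hc0
  set x : twistedD4 K q := ⟨_, mx⟩ with hx
  set y : twistedD4 K q := ⟨_, my⟩ with hy
  have hTn : ∀ (m : ℕ → ℤ) (z : twistedD4 K q), Tor chevD4 m c (z : GL chevD4.Idx K) →
      z ∈ normalizer (((rootT hD φ 14).subgroupOf (twistedD4 K q) : Subgroup (twistedD4 K q)) : Set (twistedD4 K q)) := by
    intro m z hz
    rw [mem_normalizer_iff]
    have hconj : ∀ (c' : K) (t : K), φ c' = c' → φ t = t → φ (c' ^ (m 14) * t) = c' ^ (m 14) * t := by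
      intro c' t h1 h2
      rw [map_mul, map_zpow₀, h1, h2]
    have hxa : ∀ t : K, (z : GL chevD4.Idx K) * xG hD 14 t * (z : GL chevD4.Idx K)⁻¹ = xG hD 14 (c ^ (m 14) * t) := fun t => by
      rw [hz.xG hD l14, mul_inv_cancel_right]
    intro w
    rw [mem_subgroupOf, mem_subgroupOf, mem_rootT, mem_rootT]
    show _ ↔ ∃ t, φ t = t ∧ (z : GL chevD4.Idx K) * (w : GL chevD4.Idx K) * (z : GL chevD4.Idx K)⁻¹ = xG hD 14 t
    constructor
    · rintro ⟨t, ht, hw⟩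
      exact ⟨_, hconj c t hφc ht, by rw [hw, hxa]⟩
    · rintro ⟨t, ht, hw⟩
      refine ⟨c⁻¹ ^ (m 14) * t, hconj c⁻¹ t (by rw [map_inv₀, hφc]) ht, ?_⟩
      have h3 := hxa (c⁻¹ ^ (m 14) * t)
      rw [← mul_assoc, inv_zpow, mul_inv_cancel₀ (zpow_ne_zero _ hc0), one_mul, ← hw] at h3
      rw [inv_zpow]
      exact (mul_left_cancel (mul_right_cancel h3)).symm
  refine wit_of_two hp (x := x) (y := y) (Subtype.ext (tx.pow hc1)) ?_ (Subtype.ext (ty.pow hc1)) ?_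
    (Subtype.ext (tx.commute ty).eq) ((rootT hD φ 14).subgroupOf (twistedD4 K q)) ?_ ?_ (hTn _ x tx) (hTn _ y ty)
  · intro h
    have h1 : hG hD 18 c * hG hD 13 c * hG hD 12 c = 1 := congrArg (fun z : twistedD4 K q => (z : GL chevD4.Idx K)) h
    have h2 := tx.xG hD l18 1
    rw [h1, one_mul, mul_one, mul_one] at h2
    have h3 := xG_injective hD l18 h2
    simp only [a018, a218, a318] at h3
    exact zpow_ne_of_small hp hp2 hc1 hc2 (Or.inr (Or.inr (Or.inl rfl))) (by simpa using h3.symm)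
  · rintro ⟨j, hj⟩
    have h1 : (hG hD 18 c * hG hD 13 c * hG hD 12 c) ^ j = hG hD 14 c :=
      congrArg (fun z : twistedD4 K q => (z : GL chevD4.Idx K)) hj
    have h2 : Commute (hG hD 18 c * hG hD 13 c * hG hD 12 c) (xG hD 23 1) :=
      tx.comm_xG hD l23 (by simp only [a023, a223, a323]; norm_num) 1
    have h3 : Commute (hG hD 14 c) (xG hD 23 1) := by
      rw [← h1]
      exact h2.zpow_left j
    have h4 := ty.xG hD l23 1
    rw [h3.eq, mul_one] at h4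
    have h5 := xG_injective hD l23 (mul_right_cancel h4)
    simp only [a123, zpow_one] at h5
    exact hc2 h5.symm
  · rintro ⟨w, hw⟩
    refine ⟨1, ?_⟩
    apply Subtype.ext
    apply Subtype.ext
    obtain ⟨t, -, hw'⟩ := hw
    show (w : GL chevD4.Idx K) ^ (2 ^ 1) = 1
    have hw'' : (w : GL chevD4.Idx K) = xG hD 14 t := hw'
    rw [hw'', pow_one, pow_two, xG_add, ← two_mul, h2, zero_mul, xG_zero]
  · intro h
    have m14 : xG hD 14 (1 : K) ∈ twistedD4 K q := by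
      have h := D4Fixed.x14_mem (K := K) (q := q) (t := 1) (one_pow q)
      have e : (xU 14 (1 : K) : GL chevD4.Idx K) = xG hD 14 1 := Units.ext rfl
      rwa [e] at h
    have h1 : (⟨xG hD 14 1, m14⟩ : twistedD4 K q) ∈ (rootT hD φ 14).subgroupOf (twistedD4 K q) :=
      ⟨1, map_one φ, rfl⟩
    rw [h, mem_bot] at h1
    have h3 : xG hD 14 (1 : K) = 1 := congrArg (fun z : twistedD4 K q => (z : GL chevD4.Idx K)) h1
    exact one_ne_zero ((xG_eq_one_iff hD l14 _).1 h3)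

end D4

/-! ### `²F₄(q)` -/

section F4

open Cfsg.Agent.ChevalleyStructure.F4Char2 Cfsg.Agent.ChevalleyStructure.TwF4.Torus
open Cfsg.Agent.ChevalleyStructure.TwF4.TwGen
open Cfsg.Agent.ChevalleyStructure.TwF4.Rel (X_add X_zero X_inv X_mul_self)
open Cfsg.Agent.ChevalleyStructure.TwF4.Rel (X)

theorem so_33_24 : so chevF4 33 24 = true ∧ 33 < chevF4.nroots ∧ 24 < chevF4.nroots := by decide +kernel

theorem X_eq_xG {K : Type u} [Field K] [CharP K 2] (r : ℕ) (t : K) : X r t = xG inList_F4 r t := Units.ext rfl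

theorem comm_33_24 {K : Type u} [Field K] [CharP K 2] (t s : K) : X 33 t * X 24 s = X 24 s * X 33 t := by
  rw [X_eq_xG, X_eq_xG]
  exact comm_of_so inList_F4 so_33_24.1 t s

/-- the group of the elements `X 33 (t ^ e) * X 24 t` -/
def pairT (K : Type u) [Field K] [CharP K 2] (m : ℕ) : Subgroup (GL chevF4.Idx K) where
  carrier := {g | ∃ t : K, g = X 33 (t ^ 2 ^ m) * X 24 t}
  mul_mem' := by
    rintro _ _ ⟨t, rfl⟩ ⟨u, rfl⟩
    refine ⟨t + u, ?_⟩
    rw [add_pow_char_pow, ← X_add, ← X_add]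
    rw [mul_assoc, ← mul_assoc (X 24 t), ← comm_33_24, mul_assoc, mul_assoc]
  one_mem' := ⟨0, by rw [zero_pow (pow_ne_zero m two_ne_zero), X_zero, X_zero, mul_one]⟩
  inv_mem' := by
    rintro _ ⟨t, rfl⟩
    exact ⟨t, by rw [mul_inv_rev, X_inv, X_inv, comm_33_24]⟩

/-- **`²F₄(q)`, `q ≥ 8`.** -/
theorem f4 (K : Type u) [Field K] [Finite K] (m : ℕ) (hm : 1 ≤ m) (hK : Nat.card K = 2 ^ (2 * m + 1)) :
    ∃ p, p.Prime ∧ p ≠ 2 ∧ Wit p 2 (twistedF4 K (2 ^ m)) := by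
  have := Fintype.ofFinite K
  have hch : CharP K 2 := by
    obtain ⟨p, hch⟩ := CharP.exists K
    obtain ⟨⟨n, hn⟩, hpp, hc⟩ := FiniteField.card K p
    rw [← Nat.card_eq_fintype_card, hK] at hc
    have h1 : p ∣ 2 ^ (2 * m + 1) := by
      rw [hc]
      exact dvd_pow_self p hn.ne'
    have h2 : p = 2 := (Nat.prime_dvd_prime_iff_eq hpp Nat.prime_two).1 (hpp.dvd_of_dvd_pow h1)
    exact h2 ▸ hch
  have h2 : (2 : K) = 0 := CharTwo.two_eq_zero
  have h8 : 2 < Nat.card K := by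
    rw [hK]
    calc 2 < 2 ^ 3 := by norm_num
      _ ≤ 2 ^ (2 * m + 1) := Nat.pow_le_pow_right (by norm_num) (by omega)
  obtain ⟨p, c', hp, hp2, hc1', hc2'⟩ := exists_odd_unit K h2 h8
  refine ⟨p, hp, hp2, ?_⟩
  have hc0 : c' ≠ 0 := by
    rintro rfl
    rw [zero_pow hp.ne_zero] at hc1'
    exact zero_ne_one hc1'
  set c : Kˣ := Units.mk0 c' hc0 with hc
  have hc1 : c ^ p = 1 := Units.ext (by
    rw [Units.val_pow_eq_pow_val, Units.val_one]
    exact hc1')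
  have hc2 : c ≠ 1 := fun h => hc2' (congrArg Units.val h)
  have he : ∀ x : Kˣ, x ^ (2 * 2 ^ m * 2 ^ m) = x := by
    intro x
    have h1 : x ^ (Nat.card Kˣ) = 1 := pow_card_eq_one'
    rw [Nat.card_units, hK] at h1
    have h3 : 2 * 2 ^ m * 2 ^ m = (2 ^ (2 * m + 1) - 1) + 1 := by
      rw [Nat.sub_add_cancel Nat.one_le_two_pow]
      ring
    rw [h3, pow_succ, h1, one_mul]
  have he0 : 2 ^ m ≠ 0 := pow_ne_zero m two_ne_zero
  set x : twistedF4 K (2 ^ m) := ⟨_, T_tc_mem he0 he c 1⟩ with hx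
  set y : twistedF4 K (2 ^ m) := ⟨_, T_tc_mem he0 he 1 c⟩ with hy
  have tc_one : tc (K := K) (2 ^ m) 1 1 = 1 := by
    funext l
    fin_cases l <;> simp [tc]
  have tc_pow : ∀ (s t : Kˣ) (n : ℕ), T (tc (2 ^ m) s t) ^ n = T (tc (2 ^ m) (s ^ n) (t ^ n)) := by
    intro s t n
    induction n with
    | zero => rw [pow_zero, pow_zero, pow_zero, tc_one, map_one]
    | succ n ih => rw [pow_succ, ih, ← map_mul, tc_mul, pow_succ, pow_succ]
  have tc_inj : ∀ s t s' t' : Kˣ, T (tc (2 ^ m) s t) = T (tc (2 ^ m) s' t') → s = s' ∧ t = t' := by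
    intro s t s' t' h
    have h1 := T_injective h
    exact ⟨congrFun h1 2, congrFun h1 3⟩
  have hTn : ∀ (s t : Kˣ) (z : twistedF4 K (2 ^ m)), (z : GL chevF4.Idx K) = T (tc (2 ^ m) s t) →
      z ∈ normalizer (((pairT K m).subgroupOf (twistedF4 K (2 ^ m)) : Subgroup _) : Set (twistedF4 K (2 ^ m))) := by
    intro s t z hz
    have hconj : ∀ (s t : Kˣ) (a : K), T (tc (2 ^ m) s t) * (X 33 (a ^ 2 ^ m) * X 24 a) * (T (tc (2 ^ m) s t))⁻¹ ∈
        pairT K m := by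
      intro s t a
      refine ⟨(chi (tc (2 ^ m) s t) 24 : K) * a, ?_⟩
      have h1 := T_conj_X (tc (2 ^ m) s t) (r := 33) (by norm_num) (a ^ 2 ^ m)
      have h3 := T_conj_X (tc (2 ^ m) s t) (r := 24) (by norm_num) a
      rw [mul_pow, ← Units.val_pow_eq_pow_val, ← chi_tc_33, ← h1, ← h3]
      group
    have hinv : (T (tc (2 ^ m) s t))⁻¹ = T (tc (K := K) (2 ^ m) s⁻¹ t⁻¹) := by
      rw [inv_eq_iff_mul_eq_one, ← map_mul, tc_mul, mul_inv_cancel, mul_inv_cancel, tc_one, map_one]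
    rw [mem_normalizer_iff]
    intro w
    rw [mem_subgroupOf, mem_subgroupOf]
    constructor
    · rintro ⟨a, ha⟩
      show (z : GL chevF4.Idx K) * (w : GL chevF4.Idx K) * (z : GL chevF4.Idx K)⁻¹ ∈ pairT K m
      rw [ha, hz]
      exact hconj s t a
    · rintro ⟨a, ha⟩
      have ha' : (z : GL chevF4.Idx K) * (w : GL chevF4.Idx K) * (z : GL chevF4.Idx K)⁻¹ = X 33 (a ^ 2 ^ m) * X 24 a := ha
      have h1 := hconj s⁻¹ t⁻¹ a
      rw [← ha', ← hinv, hz] at h1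
      have h3 : (T (tc (2 ^ m) s t))⁻¹ * (T (tc (2 ^ m) s t) * (w : GL chevF4.Idx K) * (T (tc (2 ^ m) s t))⁻¹) *
          ((T (tc (2 ^ m) s t))⁻¹)⁻¹ = (w : GL chevF4.Idx K) := by group
      rw [h3] at h1
      exact h1
  refine wit_of_two hp (x := x) (y := y) ?_ ?_ ?_ ?_ ?_
    ((pairT K m).subgroupOf (twistedF4 K (2 ^ m))) ?_ ?_ (hTn c 1 x rfl) (hTn 1 c y rfl)
  · apply Subtype.ext
    show T (tc (2 ^ m) c 1) ^ p = 1
    rw [tc_pow, hc1, one_pow, tc_one, map_one]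
  · intro h
    have h1 : T (tc (2 ^ m) c 1) = T (tc (K := K) (2 ^ m) 1 1) := by
      rw [tc_one, map_one]
      exact congrArg (fun z : twistedF4 K (2 ^ m) => (z : GL chevF4.Idx K)) h
    exact hc2 (tc_inj _ _ _ _ h1).1
  · apply Subtype.ext
    show T (tc (2 ^ m) 1 c) ^ p = 1
    rw [tc_pow, hc1, one_pow, tc_one, map_one]
  · intro h
    have h0 : x ^ p = 1 := by
      apply Subtype.ext
      show T (tc (2 ^ m) c 1) ^ p = 1
      rw [tc_pow, hc1, one_pow, tc_one, map_one]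
    obtain ⟨j, hj⟩ := (mem_powers_iff_mem_zpowers (x := x)).2 h
    have h1 : T (tc (2 ^ m) c 1) ^ j = T (tc (2 ^ m) 1 c) :=
      congrArg (fun z : twistedF4 K (2 ^ m) => (z : GL chevF4.Idx K)) hj
    rw [tc_pow, one_pow] at h1
    exact hc2 (tc_inj _ _ _ _ h1).2.symm
  · apply Subtype.ext
    show T (tc (2 ^ m) c 1) * T (tc (2 ^ m) 1 c) = T (tc (2 ^ m) 1 c) * T (tc (2 ^ m) c 1)
    rw [← map_mul, ← map_mul, mul_comm]
  · rintro ⟨w, hw⟩
    refine ⟨1, ?_⟩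
    apply Subtype.ext
    apply Subtype.ext
    obtain ⟨t, hw'⟩ := hw
    show (w : GL chevF4.Idx K) ^ (2 ^ 1) = 1
    have hw'' : (w : GL chevF4.Idx K) = X 33 (t ^ 2 ^ m) * X 24 t := hw'
    rw [hw'', pow_one, pow_two, mul_assoc, ← mul_assoc (X 24 t), ← comm_33_24, mul_assoc, X_mul_self, mul_one,
      X_mul_self]
  · intro h
    have h1 : (⟨X 33 ((1 : K) ^ 2 ^ m) * X 24 1, pair_mem (2 ^ m) 1⟩ : twistedF4 K (2 ^ m)) ∈
        (pairT K m).subgroupOf (twistedF4 K (2 ^ m)) := ⟨1, rfl⟩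
    rw [h, mem_bot] at h1
    have h3 : X 33 ((1 : K) ^ 2 ^ m) * X 24 (1 : K) = 1 :=
      congrArg (fun z : twistedF4 K (2 ^ m) => (z : GL chevF4.Idx K)) h1
    rw [one_pow] at h3
    set C : Fin 4 → Kˣ := ![c, 1, 1, 1] with hC
    have c33 : chi C 33 = c ^ 2 := by
      rw [chi33]
      show c ^ 2 * (1 : Kˣ)⁻¹ = _
      rw [inv_one, mul_one]
    have c24 : chi C 24 = 1 := by
      rw [chi24]
      show (1 : Kˣ)⁻¹ * 1 ^ 2 = _
      rw [inv_one, one_pow, one_mul]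
    have h4 := T_conj_X C (r := 33) (by norm_num) (1 : K)
    have h5 := T_conj_X C (r := 24) (by norm_num) (1 : K)
    rw [c33, mul_one] at h4
    rw [c24, Units.val_one, one_mul] at h5
    have h6 : X 33 ((c ^ 2 : Kˣ) : K) * X 24 (1 : K) = 1 := by
      rw [← h4, ← h5]
      have : T C * X 33 1 * (T C)⁻¹ * (T C * X 24 1 * (T C)⁻¹) = T C * (X 33 1 * X 24 1) * (T C)⁻¹ := by group
      rw [this, h3, mul_one, mul_inv_cancel]
    have h7 : X 33 ((c ^ 2 : Kˣ) : K) = X 33 (1 : K) := by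
      rw [eq_inv_of_mul_eq_one_left h6, eq_inv_of_mul_eq_one_left h3]
    rw [X_eq_xG, X_eq_xG] at h7
    have h8 := xG_injective inList_F4 so_33_24.2.1 h7
    have h9 : c' ^ 2 = 1 := by
      rw [Units.val_pow_eq_pow_val] at h8
      exact h8
    exact zpow_ne_of_small hp hp2 hc1' hc2' (Or.inr (Or.inr (Or.inl rfl))) (by exact_mod_cast h9)

end F4

end Cfsg.Agent.H45.Thin.ExcRows
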