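import Cfsg.Agent.H45.Thin.Base
import Cfsg.Agent.FixBN.HeStab

/-!
# The Held group is not thin
-/

set_option autoImplicit false
set_option maxRecDepth 20000

namespace Cfsg.Agent.H45.Thin.Held

open Cfsg.Agent.ETable Cfsg.Spor Cfsg.Spor.He Cfsg.Agent.SporadicB.HePerm Cfsg.Agent.FixBN.HeStab

/-- a word of order 3 in the centraliser of `bc` -/
def yW : List Gen :=
  [.f, .d, .c, .d, .f, .c, .g, .d, .f, .a, .g, .a, .f, .d, .g, .c, .f, .d, .c, .d, .g, .d, .c,
  .d, .f, .c, .g, .d, .f, .a, .e, .c, .b, .d, .c, .d, .f, .c, .g, .d, .f, .a, .g, .a, .f, .d, .g,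
  .c, .f, .d, .c, .d, .g, .d, .c, .d, .f, .c, .g, .d, .f, .a, .e, .c, .a, .b, .d, .c, .d, .f, .c,
  .g, .d, .f, .a, .g, .a, .f, .d, .g, .c, .f, .d, .c, .d, .g, .d, .c, .d, .f, .c, .g, .d, .f, .a,
  .c, .b]

def xW : List Gen := [.b, .c]

def tW : List Gen := [.e]

theorem wd_app (v w : List Gen) : wd (v ++ w) = wd v * wd w := by
  unfold wd
  rw [List.map_append, List.prod_append]

theorem wd_one : wd [] = 1 := rfl

/-- The Held group contains `3 × A₄`. -/
theorem he : Wit 3 2 Cfsg.Spor.He := by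
  have hx : wd (xW ++ xW ++ xW) = wd [] := eq_of_chkB (by decide +kernel)
  have hy : wd (yW ++ yW ++ yW) = wd [] := eq_of_chkB (by decide +kernel)
  have hxy : wd (xW ++ yW) = wd (yW ++ xW) := eq_of_chkB (by decide +kernel)
  have ht : wd (tW ++ tW) = wd [] := eq_of_chkB (by decide +kernel)
  have hxt : wd (xW ++ tW) = wd (tW ++ xW) := eq_of_chkB (by decide +kernel)
  have h4 : wd (tW ++ (yW ++ tW ++ (yW ++ yW)) ++ (yW ++ (yW ++ tW ++ (yW ++ yW)) ++ (yW ++ yW))) =
      wd [] := eq_of_chkB (by decide +kernel)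
  simp only [wd_app, wd_one] at hx hy hxy ht hxt h4
  have hyi : (wd yW)⁻¹ = wd yW * wd yW := by
    rw [inv_eq_iff_mul_eq_one, ← mul_assoc]; exact hy
  refine wit_of_four (x := wd xW) (y := wd yW) (t := wd tW) (by rw [pow_succ, pow_two]; exact hx) ?_
    (by rw [pow_succ, pow_two]; exact hy) hxy ht hxt ?_ (by rw [hyi]; exact h4)
  · intro h
    have h1 : (phi (wd xW) 0 : Fin 2058).val = (phi (wd []) 0 : Fin 2058).val := by rw [h]; rfl
    rw [phi_wd_apply, phi_wd_apply] at h1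
    exact absurd h1 (by decide +kernel)
  · intro h
    have h1 : wd (yW ++ tW) = wd (tW ++ yW) := by rw [wd_app, wd_app]; exact h
    have h2 : ∀ i : Fin 2058, act (yW ++ tW) i = act (tW ++ yW) i := by
      intro i
      rw [← phi_wd_apply, ← phi_wd_apply, h1]
    exact absurd (h2 0) (by decide +kernel)

end Cfsg.Agent.H45.Thin.Held
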