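import Cfsg.Agent.H45.Thin.Base
import Cfsg.Agent.J3Type.Extra
import Cfsg.Agent.J3Type.Mats
import Cfsg.Agent.S1625

/-!
# Thin groups (S2028): `J₃` (helper45)

`c` of order 3 commutes with `⟨z, x⟩ ≅ A₄`.
-/

set_option autoImplicit false

namespace Cfsg.Agent.H45.Thin.JThree

open Subgroup Cfsg Cfsg.Agent.J3Type.PresDef
open Cfsg.Agent.ETable (Wit)

/-- a configuration gives a witness -/
theorem wit_amal {G : Type*} [Group G] [Finite G] {z y s c f g u h d w x v : G} (A : Amal z y s c f g u h d w x v)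
    (hz : z ≠ 1) : Wit 3 2 G := by
  obtain ⟨y2, yc, xc, vc, xz, xs, x3, vz, vy, v3, wc', w'2, xw', hwz⟩ := Cfsg.Agent.J3Type.Extra.amal_facts A
  have hyz : y ≠ z := by
    intro hy
    apply hz
    have := A.sy
    rw [hy] at this
    calc z = s * z * (s * z) := this.symm
      _ = s * z * (z * s) := by rw [A.zs]
      _ = s * (z * z) * s := by group
      _ = 1 := by rw [A.z2, mul_one, A.s2]
  have hc1 : c ≠ 1 := by
    intro h1
    have hd : d = 1 := by rw [← A.cw, h1, mul_one, A.w2]
    exact hyz (by rw [← A.zd, hd]; group)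
  have hcube : z * x * (z * x) * (z * x) = 1 :=
    Cfsg.Agent.J3Type.Extra.zx_cubed (C := G) A.z2 A.s2 A.zs.symm y2 A.sy xz xs x3
  refine wit_of_four (x := c) (y := x) (t := z) ?_ hc1 ?_ xc.symm A.z2 A.zc.symm ?_ ?_
  · rw [pow_succ, pow_two]; exact A.c3
  · rw [pow_succ, pow_two]; exact x3
  · intro h1
    rw [xz] at h1
    exact hyz (mul_right_cancel h1)
  · have e1 : x⁻¹ * x⁻¹ = x := by
      have : x⁻¹ = x * x := by
        rw [inv_eq_iff_mul_eq_one, ← mul_assoc]; exact x3
      rw [← mul_inv_rev, ← this, inv_inv]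
    calc z * (x * z * x⁻¹) * (x * (x * z * x⁻¹) * x⁻¹) = z * x * z * x * z * (x⁻¹ * x⁻¹) := by group
      _ = z * x * (z * x) * (z * x) := by rw [e1]; group
      _ = 1 := hcube

/-- **`J₃`.** -/
theorem wit {K : Type*} [Group K] (h : Spor.IsoJ3 K) : Wit 3 2 K := by
  obtain ⟨F', _, _, ω, hF, hω, ⟨e⟩⟩ := h
  have H := Cfsg.Agent.J3.Core.good_of_card hF hω
  obtain ⟨z, y, s, c, f, g, u, h, d, w, x, v, A, -, htop⟩ := Cfsg.Agent.J3Type.Mats.exists_amal hF H
  have hcard : Nat.card (Spor.J3 F' ω) = 50232960 := (Cfsg.Agent.S1625.result F' hF ω hω).2.2.1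
  have hfin : Finite (Spor.J3 F' ω) := Nat.finite_of_card_ne_zero (by rw [hcard]; norm_num)
  have hz1 : z ≠ 1 := by
    intro hz
    have hy : y = 1 := by rw [← A.zd, hz]; group
    have hs : s = 1 := by
      have h1 : h * (h * s * h) * h = s := by
        calc h * (h * s * h) * h = (h * h) * s * (h * h) := by group
          _ = s := by rw [A.h2]; group
      rw [← h1, ← A.y_def, hy, mul_one, A.h2]
    have hf : f = 1 := by rw [← A.zw, hz, mul_one, A.w2]
    have hh : h = 1 := by
      have h1 := A.fh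
      rw [hf, one_mul, A.h2, one_mul] at h1
      exact h1
    have hc : c = 1 := by
      have h1 := A.ch
      rw [hh, mul_one] at h1
      have h2 := A.c3
      rw [h1, one_mul] at h2
      exact h2
    have hd : d = 1 := by rw [← A.cw, hc, mul_one, A.w2]
    have hle : (⊤ : Subgroup (Spor.J3 F' ω)) ≤ zpowers w := by
      rw [← htop, closure_le]
      rintro a (rfl | rfl | rfl | rfl | rfl | rfl)
      · rw [hc]; exact one_mem _
      · rw [hf]; exact one_mem _
      · rw [hh]; exact one_mem _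
      · rw [hs]; exact one_mem _
      · rw [hd]; exact one_mem _
      · exact mem_zpowers _
    have h1 := Subgroup.card_le_of_le hle
    rw [card_top, hcard, Nat.card_zpowers] at h1
    have h2 : orderOf w ≤ 2 := orderOf_le_of_pow_eq_one (by norm_num) (by rw [pow_two, A.w2])
    omega
  exact (wit_amal A hz1).congr e.symm

end Cfsg.Agent.H45.Thin.JThree
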