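import Cfsg.Agent.H45.Thin.Base
import Cfsg.Agent.J2Sylow.SporSylow

/-!
# Thin groups (S2028): `J₂` (helper45)

Explicit words in the model on 100 points.
-/

set_option autoImplicit false

namespace Cfsg.Agent.H45.Thin.JTwo

open Cfsg Cfsg.Agent.J2.HundredGens Cfsg.Agent.J2Sylow.SporSylow
open Cfsg.Agent.ETable (Wit)

/-- element of order 3 -/
def x : List ℕ := [2, 0, 1, 0]
/-- element of order 3 -/
def y : List ℕ := [3, 2, 3, 1, 2, 3, 2, 1, 0, 1, 2, 3, 2, 0, 1]
/-- involution -/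
def t : List ℕ := [4]

theorem hx : pw (x ++ x ++ x) = pw [] := pw_eq (by decide +kernel)
theorem hy : pw (y ++ y ++ y) = pw [] := pw_eq (by decide +kernel)
theorem ht : pw (t ++ t) = pw [] := pw_eq (by decide +kernel)
theorem hxy : pw (x ++ y) = pw (y ++ x) := pw_eq (by decide +kernel)
theorem hxt : pw (x ++ t) = pw (t ++ x) := pw_eq (by decide +kernel)
theorem hyt : chk (y ++ t ++ y.reverse ++ t) [] = false := by decide +kernel
theorem h4 : pw (t ++ (y ++ t ++ y.reverse) ++ (y ++ (y ++ t ++ y.reverse) ++ y.reverse)) = pw [] :=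
  pw_eq (by decide +kernel)
theorem hx1 : chk x [] = false := by decide +kernel

/-- **`J₂`.** -/
theorem wit : Wit 3 2 Spor.J2 := by
  obtain ⟨e⟩ := J2_iso card_J2
  refine Wit.congr e.symm ?_
  have hval : ∀ L : List ℕ, ((gw L : Cfsg.Agent.SporadicA.J2Hundred.G) : Equiv.Perm (Fin 100)) = pw L := fun _ => rfl
  refine wit_of_four (x := gw x) (y := gw y) (t := gw t) ?_ ?_ ?_ ?_ ?_ ?_ ?_ ?_
  · apply Subtype.ext
    show pw x ^ 3 = 1
    rw [pw_cube, hx, pw_nil]
  · intro h
    exact ne_one hx1 (congrArg Subtype.val h)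
  · apply Subtype.ext
    show pw y ^ 3 = 1
    rw [pw_cube, hy, pw_nil]
  · apply Subtype.ext
    show pw x * pw y = pw y * pw x
    rw [pw_mul, pw_mul, hxy]
  · apply Subtype.ext
    show pw t * pw t = 1
    rw [pw_mul, ht, pw_nil]
  · apply Subtype.ext
    show pw x * pw t = pw t * pw x
    rw [pw_mul, pw_mul, hxt]
  · intro h
    have h1 : pw y * pw t = pw t * pw y := congrArg Subtype.val h
    refine ne_one hyt ?_
    rw [pw_append, pw_append, pw_append, pw_reverse, h1, mul_inv_cancel_right, pw_mul, ht, pw_nil]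
  · apply Subtype.ext
    show pw t * (pw y * pw t * (pw y)⁻¹) * (pw y * (pw y * pw t * (pw y)⁻¹) * (pw y)⁻¹) = 1
    rw [← pw_nil, ← h4]
    simp only [pw_append, pw_reverse]

end Cfsg.Agent.H45.Thin.JTwo
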