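import Cfsg.Agent.H45.Thin.Lin
import Cfsg.Agent.ETable.ExcTorus

/-!
# Thin groups (S2028): `PSL_n(q)`, rows (helper45)
-/

set_option autoImplicit false

namespace Cfsg.Agent.H45.Thin

open Cfsg Subgroup Matrix
open Cfsg.Agent.ETable

/-- numbers with prime factors 2 and 3 only, not divisible by 9 -/
theorem two_three {n : ℕ} (hn : n ≠ 0) (h : ∀ p : ℕ, p.Prime → p ∣ n → p = 2 ∨ p = 3) (h9 : ¬ 9 ∣ n) :
    ∃ a b : ℕ, n = 2 ^ a * 3 ^ b ∧ b ≤ 1 := by
  obtain ⟨a, m, hm, rfl⟩ := Nat.exists_eq_two_pow_mul_odd hn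
  have hm0 : m ≠ 0 := by
    rintro rfl
    exact hn (mul_zero _)
  have h3 : m = 3 ^ m.primeFactorsList.length := by
    refine Nat.eq_prime_pow_of_unique_prime_dvd hm0 ?_
    intro p hp hpm
    rcases h p hp (hpm.trans (dvd_mul_left _ _)) with rfl | rfl
    · exact absurd hpm (by
        rw [← Nat.not_even_iff_odd, even_iff_two_dvd] at hm
        exact hm)
    · rfl
  refine ⟨a, m.primeFactorsList.length, by rw [← h3], ?_⟩
  by_contra hcon
  apply h9
  have h4 : 3 ^ 2 ∣ m := by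
    conv_rhs => rw [h3]
    exact pow_dvd_pow 3 (by omega)
  exact (show (9 : ℕ) = 3 ^ 2 by norm_num) ▸ h4.trans (dvd_mul_left _ _)

theorem exists_nine (F : Type*) [Field F] [Finite F] (h : 9 ∣ Nat.card F - 1) : ∃ c : F, c ^ 9 = 1 ∧ c ^ 3 ≠ 1 := by
  classical
  obtain ⟨g, hg⟩ := IsCyclic.exists_generator (α := Fˣ)
  have hord : orderOf g = Nat.card F - 1 := by
    rw [orderOf_eq_card_of_forall_mem_zpowers hg, Nat.card_units]
  obtain ⟨k, hk⟩ := h
  have hk0 : 0 < k := by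
    rcases Nat.eq_zero_or_pos k with h0 | h0
    · exfalso
      have := Finite.one_lt_card (α := F)
      rw [h0, mul_zero] at hk
      omega
    · exact h0
  refine ⟨((g ^ k : Fˣ) : F), ?_, ?_⟩
  · rw [← Units.val_pow_eq_pow_val, ← pow_mul, mul_comm, ← hk, ← hord, pow_orderOf_eq_one, Units.val_one]
  · intro h1
    rw [← Units.val_pow_eq_pow_val, ← Units.val_one, Units.val_inj, ← pow_mul] at h1
    have h2 := orderOf_dvd_of_pow_eq_one h1
    rw [hord, hk] at h2
    have h3 := Nat.le_of_dvd (by omega) h2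
    omega

/-- **`PSL_3(q)`** -/
theorem psl3 (F : Type*) [Field F] [Finite F] : Nat.card F = 2 ∨ Nat.card F = 4 ∨
    (∃ p a b : ℕ, p.Prime ∧ Odd p ∧ p = 2 ^ a * 3 ^ b + 1 ∧ b ≤ 1 ∧ CharP F p ∧ Nat.card F = p) ∨
    ∃ p : ℕ, p.Prime ∧ p ≠ 2 ∧ Wit p 2 (ProjectiveSpecialLinearGroup (Fin 3) F) := by
  by_contra hcon
  push Not at hcon
  obtain ⟨h2, h4, hp, hw⟩ := hcon
  have hq := Finite.one_lt_card (α := F)
  obtain ⟨a, b, hab, hb⟩ := two_three (n := Nat.card F - 1) (by omega) (by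
    intro r hr hrd
    by_contra hr23
    push Not at hr23
    obtain ⟨c, hc, hc1⟩ := Exc.exists_unit_of_dvd F hr hrd
    exact hw r hr hr23.1 (psl3_torus hr hr23.2 hc hc1)) (by
    intro h9
    obtain ⟨c, hc, hc1⟩ := exists_nine F h9
    exact hw 3 Nat.prime_three (by norm_num) (psl3_nine hc hc1))
  obtain ⟨p, hcp⟩ := CharP.exists F
  have hpp : p.Prime := CharP.char_is_prime F p
  by_cases hp2 : p = 2
  · subst hp2
    obtain ⟨m, hm, h⟩ := exists_card_eq F 2
    rcases Nat.eq_zero_or_pos a with ha | ha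
    · subst ha
      rw [pow_zero, one_mul] at hab
      interval_cases b
      · omega
      · omega
    · have h1 : 2 ∣ Nat.card F - 1 := by
        rw [hab]
        exact (dvd_pow_self 2 (by omega)).trans (dvd_mul_right _ _)
      have h3 : 2 ∣ Nat.card F := by
        rw [h]
        exact dvd_pow_self 2 (by omega)
      omega
  · have hc : Nat.card F = p := by
      by_contra hne
      exact hw p hpp hp2 (psl3_char hp2 hne)
    have hodd : Odd p := hpp.odd_of_ne_two hp2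
    exact hp p a b hpp hodd (by omega) hb hcp hc

/-- **`q` even, `n ≥ 4`, `p = 3`.** -/
theorem psl_two_blocks {F : Type*} [Field F] (h2 : (2 : F) = 0) (k : ℕ) :
    Wit 3 2 (ProjectiveSpecialLinearGroup (Fin (k + 4)) F) := by
  classical
  have hne : ∀ a b : ℕ, a < 4 → b < 4 → a ≠ b → (Fin.ofNat (k + 4) a) ≠ Fin.ofNat (k + 4) b := by
    intro a b ha hb hab h
    rw [Fin.ext_iff, Fin.val_ofNat, Fin.val_ofNat, Nat.mod_eq_of_lt (by omega), Nat.mod_eq_of_lt (by omega)] at h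
    exact hab h
  let c : ℕ → Fin (k + 4) := Fin.ofNat (k + 4)
  have hlt : ∀ i : Fin 2, 2 * (i : ℕ) < 4 ∧ 2 * (i : ℕ) + 1 < 4 := fun i => by omega
  have hp : ∀ i : Fin 2, c (2 * i) ≠ c (2 * i + 1) := fun i => hne _ _ (hlt i).1 (hlt i).2 (by omega)
  let u : Fin 2 → SpecialLinearGroup (Fin (k + 4)) F := fun i => tvSL (hp i) 1
  let v : Fin 2 → SpecialLinearGroup (Fin (k + 4)) F := fun i => tvSL (hp i).symm 1
  have hst : ∀ i : Fin (k + 4), (i = c 0 ∨ i = c 1) → ¬ (i = c 2 ∨ i = c 3) := by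
    rintro i (rfl | rfl) (h | h)
    · exact hne 0 2 (by omega) (by omega) (by omega) h
    · exact hne 0 3 (by omega) (by omega) (by omega) h
    · exact hne 1 2 (by omega) (by omega) (by omega) h
    · exact hne 1 3 (by omega) (by omega) (by omega) h
  let T : Subgroup (SpecialLinearGroup (Fin (k + 4)) F) :=
    radT (repSL (k + 4) F) (dgI F (fun i => i = c 0 ∨ i = c 1)) (dgI F (fun i => i = c 2 ∨ i = c 3))
      (dgI_mul_eq_zero hst)
  let π : SpecialLinearGroup (Fin (k + 4)) F →* ProjectiveSpecialLinearGroup (Fin (k + 4)) F :=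
    QuotientGroup.mk' (center _)
  have hcomm : ∀ g : SpecialLinearGroup (Fin (k + 4)) F, (∃ i : Fin 2, g = u i ∨ g = v i) →
      g ∈ normalizer (T : Set (SpecialLinearGroup (Fin (k + 4)) F)) := by
    rintro g ⟨i, hg⟩
    have key : ∀ a : ℕ, a = 0 ∨ a = 2 → ((c (2 * i) = c a ∨ c (2 * i) = c (a + 1)) ↔
        (c (2 * i + 1) = c a ∨ c (2 * i + 1) = c (a + 1))) := by
      intro a ha
      have e : ∀ x y : ℕ, x < 4 → y < 4 → (c x = c y ↔ x = y) := fun x y hx hy =>
        ⟨fun h => by_contra fun h' => hne x y hx hy h' h, fun h => by rw [h]⟩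
      rw [e _ _ (hlt i).1 (by omega), e _ _ (hlt i).1 (by omega), e _ _ (hlt i).2 (by omega),
        e _ _ (hlt i).2 (by omega)]
      omega
    rcases hg with rfl | rfl
    · exact normalizer_radT (tvSL_dgI (hp i) 1 (key 0 (Or.inl rfl))) (tvSL_dgI (hp i) 1 (key 2 (Or.inr rfl)))
    · exact normalizer_radT (tvSL_dgI (hp i).symm 1 (key 0 (Or.inl rfl)).symm)
        (tvSL_dgI (hp i).symm 1 (key 2 (Or.inr rfl)).symm)
  have hnorm : ∀ g : SpecialLinearGroup (Fin (k + 4)) F, (∃ i : Fin 2, g = u i ∨ g = v i) →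
      π g ∈ normalizer ((T.map π : Subgroup (ProjectiveSpecialLinearGroup (Fin (k + 4)) F)) :
        Set (ProjectiveSpecialLinearGroup (Fin (k + 4)) F)) := by
    intro g hg
    exact Subgroup.le_normalizer_map π ⟨g, hcomm g hg, rfl⟩
  have hne' : ∀ i j : Fin 2, i ≠ j → ∀ x y : ℕ, x < 2 → y < 2 → c (2 * i + x) ≠ c (2 * j + y) := by
    intro i j hij x y hx hy
    have h1 : (i : ℕ) ≠ j := fun h => hij (Fin.ext h)
    exact hne _ _ (by omega) (by omega) (by omega)
  refine Wit.of_pairs (fun i => π (u i)) (fun i => π (v i)) ?_ ?_ ?_ ?_ ?_ ?_ ?_ (T.map π)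
    ((isPGroup_radT (repSL_injective _ _) (two_eq_zero_matrix h2)).map π) ?_ ?_ ?_
  · intro i
    rw [← map_mul, tvSL_mul_self _ h2, map_one]
  · intro i
    rw [← map_mul, tvSL_mul_self _ h2, map_one]
  · intro i
    rw [← map_mul, ← map_mul, ← map_mul, ← map_mul]
    exact congrArg π (tvSL_braid (hp i) h2)
  · intro i h
    rw [← map_mul, QuotientGroup.mk'_apply, QuotientGroup.eq_one_iff] at h
    exact tvSL_pair_not_center (hp i) h
  · intro i j h
    refine Commute.map (tvSL_commute (hp i) (hp j) ?_ ?_ 1 1) π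
    · exact hne' i j h 1 0 (by omega) (by omega)
    · exact hne' j i h.symm 1 0 (by omega) (by omega)
  · intro i j h
    refine Commute.map (tvSL_commute (hp i) (hp j).symm ?_ ?_ 1 1) π
    · exact hne' i j h 1 1 (by omega) (by omega)
    · exact hne' j i h.symm 0 0 (by omega) (by omega)
  · intro i j h
    refine Commute.map (tvSL_commute (hp i).symm (hp j).symm ?_ ?_ 1 1) π
    · exact hne' i j h 0 1 (by omega) (by omega)
    · exact hne' j i h.symm 0 1 (by omega) (by omega)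
  · intro h0
    rw [Subgroup.map_eq_bot_iff, QuotientGroup.ker_mk'] at h0
    have h02 : c 0 ≠ c 2 := hne 0 2 (by omega) (by omega) (by omega)
    exact tvSL_not_center h02 one_ne_zero
      (h0 (tvSL_mem_radT h02 (1 : F) hst (Or.inl rfl) (Or.inl rfl)))
  · intro i
    exact hnorm _ ⟨i, Or.inl rfl⟩
  · intro i
    exact hnorm _ ⟨i, Or.inr rfl⟩

/-- **`PSL_n(q)`, `n ≥ 4`** -/
theorem psl_four {F : Type*} [Field F] [Finite F] {n : ℕ} (hn : 4 ≤ n) :
    ∃ p : ℕ, p.Prime ∧ p ≠ 2 ∧ Wit p 2 (ProjectiveSpecialLinearGroup (Fin n) F) := by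
  obtain ⟨p, hcp⟩ := CharP.exists F
  have hpp : p.Prime := CharP.char_is_prime F p
  by_cases hp2 : p = 2
  · subst hp2
    have h2 : (2 : F) = 0 := by exact_mod_cast CharP.cast_eq_zero F 2
    obtain ⟨k, rfl⟩ : ∃ k, n = k + 4 := ⟨n - 4, by omega⟩
    exact ⟨3, Nat.prime_three, by norm_num, psl_two_blocks h2 k⟩
  · by_cases h5 : 5 ≤ n
    · obtain ⟨k, rfl⟩ : ∃ k, n = k + 5 := ⟨n - 5, by omega⟩
      exact ⟨p, hpp, hp2, (psl_odd hp2 k).mono hpp.one_le (by norm_num)⟩
    · obtain rfl : n = 4 := by omega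
      exact ⟨p, hpp, hp2, psl4_char hp2⟩

end Cfsg.Agent.H45.Thin
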