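import Cfsg.Agent.H45.Thin.Base
import Cfsg.Agent.Omega.Quasithin.Row.ON

/-!
# Thin groups (S2028): `O'N` (helper45)

`x = ab` commutes with `⟨d, e, f⟩`, a quotient of the symmetric group of degree 4; `t = df`, `y = de`.
-/

set_option autoImplicit false
set_option maxRecDepth 100000

namespace Cfsg.Agent.H45.Thin.ONan

open Subgroup
open Cfsg.Agent.ETable (Wit)
open Cfsg.Spor (ON)
open Cfsg.Spor.ON (Gen)
open Cfsg.Agent.SporadicB.ON45Word
open Cfsg.Agent.KFacts.MulSpor.ON (w w_append w_one w_cons iw w_iw okw rel eqw)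
open Cfsg.Agent.Omega.Quasithin.Row.ON (ab_ne de_ne)

theorem w_nil : w [] = 1 := rfl

variable (hs : IsSimpleGroup ON)

include hs

theorem sq (x : Gen) (hx : x ≠ .g) : on x * on x = 1 := by
  have h : ∀ y : Gen, y ≠ .g → w [y, y] = 1 := by
    intro y hy
    cases y
    · exact absurd rfl hy
    all_goals exact rel hs _ (by decide +kernel)
  have := h x hx
  rwa [w_cons, w_one] at this

theorem inv_on (x : Gen) (hx : x ≠ .g) : (on x)⁻¹ = on x := inv_eq_of_mul_eq_one_left (sq hs x hx)

theorem df_ne : on .d ≠ on .f := by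
  intro h
  -- `c` commutes with `f = d`
  have h1 : w [.c, .f] = w [.f, .c] := eqw hs _ _ (by decide +kernel)
  have h2 : w [.a, .f] = w [.c, .d, .c, .d, .c, .d, .c, .d] := eqw hs _ _ (by decide +kernel)
  have h3 : w [.b, .f] = w [.f, .b] := eqw hs _ _ (by decide +kernel)
  have h4 : w [.a, .b, .a] = w [.b, .a, .b] := eqw hs _ _ (by decide +kernel)
  simp only [w_cons, w_nil, mul_one] at h1 h2 h3 h4
  have hc := sq hs .c (by decide)
  have hd := sq hs .d (by decide)
  have ha := sq hs .a (by decide)
  have hb := sq hs .b (by decide)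
  rw [← h] at h1 h2 h3
  -- `(cd)^2 = 1`
  have h5 : on .c * (on .d * (on .c * on .d)) = 1 := by
    rw [h1, ← mul_assoc (on .d), hd, one_mul, hc]
  have h6 : on .a * on .d = 1 := by
    rw [h2]
    calc on .c * (on .d * (on .c * (on .d * (on .c * (on .d * (on .c * on .d)))))) =
        on .c * (on .d * (on .c * (on .d * 1))) := by rw [h5]
      _ = 1 := by rw [mul_one, h5]
  have h7 : on .d = on .a := by
    have := mul_eq_one_iff_eq_inv.1 h6
    rw [inv_on hs .d (by decide)] at this
    exact this.symm
  rw [h7] at h3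
  -- `a`, `b` commute
  have h8 : on .a * (on .b * on .a) = on .b := by
    rw [h3, ← mul_assoc, ha, one_mul]
  rw [h8] at h4
  have h9 : on .a * on .b = 1 := by
    have : on .b * 1 = on .b * (on .a * on .b) := by rw [mul_one]; exact h4
    exact (mul_left_cancel this).symm
  apply ab_ne
  have := mul_eq_one_iff_eq_inv.1 h9
  rw [inv_on hs .b (by decide)] at this
  exact this

/-- **`O'N`.** -/
theorem on' : Wit 3 2 ON := by
  have hed : w [.e, .d] = (w [.d, .e])⁻¹ := by
    rw [← w_iw hs]; rfl
  refine wit_of_four (x := w [.a, .b]) (y := w [.d, .e]) (t := w [.d, .f]) ?_ ?_ ?_ ?_ ?_ ?_ ?_ ?_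
  · rw [pow_succ, pow_two, ← w_append, ← w_append]
    exact rel hs _ (by decide +kernel)
  · intro h
    rw [w_cons, w_one] at h
    exact ab_ne ((mul_eq_one_iff_eq_inv.1 h).trans (inv_on hs .b (by decide)))
  · rw [pow_succ, pow_two, ← w_append, ← w_append]
    exact rel hs _ (by decide +kernel)
  · rw [← w_append, ← w_append]
    exact eqw hs _ _ (by decide +kernel)
  · rw [← w_append]
    exact rel hs _ (by decide +kernel)
  · rw [← w_append, ← w_append]
    exact eqw hs _ _ (by decide +kernel)
  · intro h
    rw [← w_append, ← w_append] at h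
    -- `d e d f = d f d e`
    have h0 : on .d * (on .e * (on .d * on .f)) = on .d * (on .f * (on .d * on .e)) := by
      simpa only [List.cons_append, List.nil_append, w_cons, w_nil, mul_one] using h
    have h1 : on .e * (on .d * on .f) = on .f * (on .d * on .e) := mul_left_cancel h0
    have h2 : w [.d, .f] = w [.f, .d] := eqw hs _ _ (by decide +kernel)
    have h3 : w [.e, .d, .e] = w [.d, .e, .d] := eqw hs _ _ (by decide +kernel)
    have h4 : w [.e, .f, .e] = w [.f, .e, .f] := eqw hs _ _ (by decide +kernel)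
    simp only [w_cons, w_nil, mul_one] at h2 h3 h4
    have hf := sq hs .f (by decide)
    have he := sq hs .e (by decide)
    -- `e f d = f d e`
    rw [h2] at h1
    -- multiply by `f` on the left: `f e f d = d e`
    have h5 : on .f * (on .e * (on .f * on .d)) = on .d * on .e := by
      rw [h1, ← mul_assoc, hf, one_mul]
    have h6 : on .e * (on .f * (on .e * on .d)) = on .d * on .e := by
      rw [← h5, ← mul_assoc (on .e) (on .f), ← mul_assoc, ← mul_assoc, mul_assoc (on .e), h4]
      simp only [mul_assoc]
    -- `f e d = e d e = d e d`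
    have h7 : on .f * (on .e * on .d) = on .d * (on .e * on .d) := by
      rw [← h3, ← h6, ← mul_assoc (on .e) (on .e), he, one_mul]
    exact df_ne hs (mul_right_cancel h7).symm
  · have e2 : (w [.d, .e])⁻¹ = w [.e, .d] := hed.symm
    rw [e2]
    simp only [← w_append]
    exact rel hs _ (by decide +kernel)

end Cfsg.Agent.H45.Thin.ONan
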