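import Cfsg.Agent.H45.Thin.Base
import Cfsg.Agent.KFacts.Ru.ConjWord
import Cfsg.Agent.RuLat.Main

/-!
# The Rudvalis group is not thin (S2028, helper45)

The element `D` of order 3 commutes with the four-group of `t = S⁻¹ W S` and an element of order 3 acting on it.
-/

set_option autoImplicit false
set_option maxRecDepth 100000
set_option exponentiation.threshold 5000

namespace Cfsg.Agent.H45.Thin.Rud

open Cfsg.Agent.ETable (Wit)
open Cfsg.Agent.SporadicB Cfsg.Agent.RuD.Letters Cfsg.Agent.SporRec.TCUpperCert Cfsg.Agent.SporRec.R3.Kernel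
open Cfsg.Agent.KFacts.Ru.ConjWord

/-- a conjugate of `D` commuting with `D` -/
def wB : List ℕ := [3, 5, 0, 4, 1, 1, 7, 5, 7, 1, 3, 0, 4, 0, 7, 6, 3, 5, 3, 6, 6, 8, 0, 5, 7]

def wT : List ℕ := [6, 2, 1]

/-- the product of the three conjugates of `t` -/
def w4 : List ℕ := wT ++ (wB ++ wT ++ iw wB) ++ (wB ++ (wB ++ wT ++ iw wB) ++ iw wB)

theorem chk : chkRel [[4, 4, 4], wB ++ (wB ++ wB), eqr ([4] ++ wB) (wB ++ [4]), wT ++ wT,
    eqr ([4] ++ wT) (wT ++ [4]), w4] = true := by decide +kernel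

theorem ne1 : neK [4] [] 0 = true := by decide +kernel

theorem ne2 : neK (wB ++ wT) (wT ++ wB) 0 = true := by decide +kernel

theorem witH : Wit 3 2 RuOrder.H := by
  have rel := rel_of_chk chk
  have hx := rel [4, 4, 4] (by simp)
  have hy := rel (wB ++ (wB ++ wB)) (by simp)
  have hxy := eq_of (rel (eqr ([4] ++ wB) (wB ++ [4])) (by simp))
  have ht := rel (wT ++ wT) (by simp)
  have hxt := eq_of (rel (eqr ([4] ++ wT) (wT ++ [4])) (by simp))
  have h4 := rel w4 (by simp)
  have hx' : (wprod ml [4] : RuOrder.H) ^ 3 = 1 := by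
    rw [pow_succ, pow_two, ← wprod_append, ← wprod_append]
    exact hx
  have hy' : (wprod ml wB : RuOrder.H) ^ 3 = 1 := by
    rw [wprod_append, wprod_append] at hy
    rw [pow_succ, pow_two, mul_assoc]
    exact hy
  rw [wprod_append, wprod_append] at hxy hxt
  rw [wprod_append] at ht
  rw [w4] at h4
  simp only [wprod_append, wprod_iw] at h4
  refine wit_of_four (x := wprod ml [4]) (y := wprod ml wB) (t := wprod ml wT) hx' ?_ hy' hxy ht hxt ?_ ?_
  · intro h
    refine ne_of 0 ne1 ?_
    rw [h, wprod_nil]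
  · intro h
    refine ne_of 0 ne2 ?_
    rw [wprod_append, wprod_append]
    exact h
  · exact h4

/-- The Rudvalis group contains `3 × A₄`. -/
theorem ru : Wit 3 2 Cfsg.Spor.Ru := witH.congr RuLat.Main.equiv.symm

end Cfsg.Agent.H45.Thin.Rud
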