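import Cfsg.Agent.QTKE.Final
import Cfsg.Agent.Sigma.Symp
import Cfsg.Agent.LieClassical.FieldTransfer
import Cfsg.Agent.S0252
import Cfsg.Agent.S0254
import Cfsg.Agent.S0255
import Cfsg.Agent.S1067
import Cfsg.Agent.S1074
import Cfsg.Agent.H45.Thin.Lin2
import Cfsg.Agent.H45.Thin.Uni2
import Cfsg.Agent.H45.Thin.Exc
import Cfsg.Agent.H45.Thin.Mathieu
import Cfsg.Agent.H45.Thin.Leech
import Cfsg.Agent.H45.Thin.JTwo
import Cfsg.Agent.H45.Thin.JThree
import Cfsg.Agent.H45.Thin.JFour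
import Cfsg.Agent.H45.Thin.ONan
import Cfsg.Agent.H45.Thin.Held
import Cfsg.Agent.H45.Thin.Rud

/-!
# The thin known simple groups (S2028): the assembly (helper45)
-/

set_option autoImplicit false

namespace Cfsg.Agent.H45.Thin

open Cfsg Subgroup
open Cfsg.Agent.ETable (Wit)
open Cfsg.Agent.QTKE (Rows Row)

/-- the list of S2028 -/
def OnThinList (G : Type*) [Group G] : Prop :=
  (∃ (F : Type) (_ : Field F) (_ : Fintype F), Nonempty (G ≃* Matrix.ProjectiveSpecialLinearGroup (Fin 2) F)) ∨ (∃ (p a b : ℕ), p.Prime ∧ Odd p ∧ p = 2 ^ a * 3 ^ b + 1 ∧ b ≤ 1 ∧ Nonempty (G ≃* Matrix.ProjectiveSpecialLinearGroup (Fin 3) (ZMod p))) ∨ (∃ (p a b : ℕ), p.Prime ∧ Odd p ∧ p + 1 = 2 ^ a * 3 ^ b ∧ b ≤ 1 ∧ ∃ (F : Type) (_ : Field F) (_ : Fintype F), Fintype.card F = p ^ 2 ∧ Nonempty (G ≃* Cfsg.PSU 3 F p)) ∨ Cfsg.Lie.IsoSuzuki G ∨ (∃ (F : Type) (_ : Field F) (_ : Fintype F) (n : ℕ), Fintype.card F = 4 ^ n ∧ Nonempty (G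 ≃* Cfsg.PSU 3 F (2 ^ n))) ∨ (∃ (F : Type) (_ : Field F) (_ : Fintype F), Fintype.card F = 4 ∧ Nonempty (G ≃* Matrix.ProjectiveSpecialLinearGroup (Fin 3) F)) ∨ Cfsg.IsTits G ∨ (Cfsg.Is3D4 G ∧ Nat.card G = 211341312) ∨ Cfsg.Spor.IsoM11 G ∨ Cfsg.Spor.IsoJ1 G

variable {G : Type*} [Group G] [Finite G] [IsSimpleGroup G]

omit [IsSimpleGroup G] in
/-- a witness in an isomorphic group is impossible -/
theorem IsThin.elim {X : Type} [Group X] (h : IsThin G) (e : G ≃* X)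
    (hw : ∃ p : ℕ, p.Prime ∧ p ≠ 2 ∧ Wit p 2 X) {P : Prop} : P := by
  obtain ⟨p, hp, hp2, w⟩ := hw
  exact (h.not_wit hp hp2 (w.congr e.symm)).elim

omit [IsSimpleGroup G] in
theorem IsThin.elim3 {X : Type} [Group X] (h : IsThin G) (e : G ≃* X) (w : Wit 3 2 X) {P : Prop} : P :=
  h.elim e ⟨3, Nat.prime_three, by norm_num, w⟩

theorem wide_elim {X : Type} [Group X] (h : IsThin G) (hna : ¬ IsMulCommutative G)
    (r : Row X (Cfsg.Agent.QTKE.Wide X)) (e : G ≃* X) {P : Prop} : P :=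
  (h.not_wide (Cfsg.Agent.QTKE.Wide.congr e (r.apply hna e))).elim

theorem list_alt (h : IsThin G) (hA : IsAlternating G) : OnThinList G := by
  obtain ⟨n, hn, ⟨e⟩⟩ := hA
  by_cases h7 : 7 ≤ n
  · exact h.elim3 e (Mathieu.alt n h7)
  have : n = 5 ∨ n = 6 := by omega
  rcases this with rfl | rfl
  · let i : Fintype (GaloisField 2 2) := Fintype.ofFinite _
    obtain ⟨f⟩ := S0252.result (F := GaloisField 2 2)
      (by rw [← Nat.card_eq_fintype_card, GaloisField.card 2 2 (by norm_num)]; norm_num)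
    exact Or.inl ⟨GaloisField 2 2, inferInstance, i, ⟨e.trans f.symm⟩⟩
  · have : Fact (Nat.Prime 3) := ⟨Nat.prime_three⟩
    let i : Fintype (GaloisField 3 2) := Fintype.ofFinite _
    obtain ⟨f⟩ := S0254.result (F := GaloisField 3 2)
      (by rw [← Nat.card_eq_fintype_card, GaloisField.card 3 2 (by norm_num)]; norm_num)
    exact Or.inl ⟨GaloisField 3 2, inferInstance, i, ⟨e.trans f.symm⟩⟩

theorem list_psl (h : IsThin G) (hA : IsPSL G) : OnThinList G := by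
  obtain ⟨F, i1, i2, n, hn, hn2, ⟨e⟩⟩ := hA
  obtain rfl | rfl | hn4 : n = 2 ∨ n = 3 ∨ 4 ≤ n := by omega
  · exact Or.inl ⟨F, i1, i2, ⟨e⟩⟩
  · rcases psl3 F with h2 | h4 | ⟨p, a, b, hp, hodd, hpab, hb, hch, hcard⟩ | hw
    · rw [Nat.card_eq_fintype_card] at h2
      have : Fact (Nat.Prime 7) := ⟨by norm_num⟩
      obtain ⟨f⟩ := S0255.result (F := ZMod 7) (K := F) (by rw [ZMod.card]) h2
      exact Or.inl ⟨ZMod 7, inferInstance, inferInstance, ⟨e.trans f.symm⟩⟩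
    · rw [Nat.card_eq_fintype_card] at h4
      exact Or.inr (Or.inr (Or.inr (Or.inr (Or.inr (Or.inl ⟨F, i1, i2, h4, ⟨e⟩⟩)))))
    · rw [Nat.card_eq_fintype_card] at hcard
      have : Fact p.Prime := ⟨hp⟩
      exact Or.inr (Or.inl ⟨p, a, b, hp, hodd, hpab, hb,
        ⟨e.trans (LieClassical.FieldTransfer.pslCongr (ZMod.ringEquivOfPrime F hp hcard)).symm⟩⟩)
    · exact h.elim e hw
  · exact h.elim e (psl_four hn4)

theorem list_psp (h : IsThin G) (hA : IsPSp G) : OnThinList G := by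
  obtain ⟨F, i1, i2, m, hm, hm2, ⟨e⟩⟩ := hA
  rcases Nat.even_or_odd (Fintype.card F) with hF | hF
  · have hchar := Cfsg.Agent.QTKE.charP_of_even F hF
    by_cases h3 : 3 ≤ m
    · obtain ⟨k, rfl⟩ : ∃ k, m = k + 1 := ⟨m - 1, by omega⟩
      exact h.elim3 e (Sigma.Symp.wit_three.mono (by norm_num) (by omega))
    · obtain rfl : m = 2 := by omega
      obtain ⟨p, c, hp, hp2, hc, hc2⟩ := Sigma.Symp.exists_unit (F := F) (hm2 rfl)
      exact h.elim e ⟨p, hp, hp2, Sigma.Symp.wit_torus (by omega) hp hc hc2⟩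
  · obtain ⟨p, hp⟩ := CharP.exists F
    have hp2 : p ≠ 2 := by
      rintro rfl
      obtain ⟨⟨n, hn⟩, hpp, hc⟩ := FiniteField.card F 2
      rw [hc] at hF
      have : Even (2 ^ n) := (even_two).pow_of_ne_zero (by omega)
      exact (Nat.not_even_iff_odd.2 hF) this
    exact h.elim e ⟨p, CharP.char_is_prime F p, hp2,
      (Cfsg.Agent.ETable.psp_odd hp2 hm).mono (CharP.char_is_prime F p).one_le hm⟩

theorem list_psu (R : Rows) (hna : ¬ IsMulCommutative G) (h : IsThin G) (hA : IsPSU G) : OnThinList G := by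
  obtain ⟨F, i1, i2, n, q, hF, hn, hnq, ⟨e⟩⟩ := hA
  have hF' : Nat.card F = q ^ 2 := by rw [Nat.card_eq_fintype_card]; exact hF
  rcases Nat.even_or_odd q with hq | hq
  · obtain ⟨k, hk, rfl⟩ := Cfsg.Agent.QTKE.pow_of_even F two_ne_zero hq hF
    have hchar := Cfsg.Agent.QTKE.charP_of_even F (by rw [hF]; exact hq.pow_of_ne_zero two_ne_zero)
    obtain rfl | hn4 : n = 3 ∨ 4 ≤ n := by omega
    · refine Or.inr (Or.inr (Or.inr (Or.inr (Or.inl ⟨F, i1, i2, k, ?_, ⟨e⟩⟩))))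
      rw [hF, ← pow_mul, mul_comm, pow_mul]
      norm_num
    · exact h.elim e (psu_even hF' hn4)
  · obtain rfl | rfl | rfl | hn6 : n = 3 ∨ n = 4 ∨ n = 5 ∨ 6 ≤ n := by omega
    · rcases psu3 hF' hq with ⟨a, b, hp, hab, hb⟩ | hw
      · exact Or.inr (Or.inr (Or.inl ⟨q, a, b, hp, hq, hab, hb, F, i1, i2, hF, ⟨e⟩⟩))
      · exact h.elim e hw
    · obtain ⟨p, hp⟩ := CharP.exists F
      have hp2 : p ≠ 2 := by
        rintro rfl
        obtain ⟨⟨n, hn⟩, hpp, hc⟩ := FiniteField.card F 2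
        have h1 : Odd (Fintype.card F) := by rw [hF]; exact hq.pow
        rw [hc] at h1
        have : Even (2 ^ n) := (even_two).pow_of_ne_zero (by omega)
        exact (Nat.not_even_iff_odd.2 h1) this
      exact h.elim e ⟨p, CharP.char_is_prime F p, hp2, psu4_char hF' hq hp2⟩
    · exact wide_elim h hna (R.psu5 F q hF (by rintro rfl; exact absurd hq (by decide))) e
    · exact wide_elim h hna (R.psu6 F n q hF hn6) e

theorem list_exc (R : Rows) (hna : ¬ IsMulCommutative G) (h : IsThin G) (hA : IsExceptionalLieType G) :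
    OnThinList G := by
  rcases hA with h1 | h1 | h1 | h1 | h1 | h1 | h1 | h1 | h1 | h1 | h1
  · obtain ⟨F, i1, i2, hF3, ⟨e⟩⟩ := h1
    exact h.elim e (ExcRows.g2 F (by rw [Nat.card_eq_fintype_card]; omega))
  · obtain ⟨F, i1, i2, ⟨e⟩⟩ := h1
    exact wide_elim h hna (R.f4 F) e
  · obtain ⟨F, i1, i2, ⟨e⟩⟩ := h1
    exact wide_elim h hna (R.e6 F) e
  · obtain ⟨F, i1, i2, ⟨e⟩⟩ := h1
    exact wide_elim h hna (R.e7 F) e
  · obtain ⟨F, i1, i2, ⟨e⟩⟩ := h1
    exact wide_elim h hna (R.e8 F) e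
  · obtain ⟨K, i1, i2, q, hq, hK, ⟨e⟩⟩ := h1
    exact wide_elim h hna (R.twistedE6 K q hq hK) e
  · obtain ⟨K, i1, i2, q, hq, hK, ⟨e⟩⟩ := h1
    rcases Nat.even_or_odd q with hq2 | hq2
    · obtain rfl | h2 : q = 2 ∨ 2 < q := by
        have := hq.one_lt
        omega
      · have hc := S1067.result hq hK
        have hG : Nat.card G = 2 ^ 12 * (2 ^ 2 - 1) * (2 ^ 6 - 1) * (2 ^ 8 + 2 ^ 4 + 1) := by
          rw [Nat.card_congr e.toEquiv, hc]
        refine Or.inr (Or.inr (Or.inr (Or.inr (Or.inr (Or.inr (Or.inr (Or.inl ⟨⟨inferInstance, 2, hq, ?_⟩, ?_⟩)))))))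
        · rw [hG]; norm_num
        · rw [hG]; norm_num
      · have h20 : (2 : K) = 0 := by
          have := Cfsg.Agent.QTKE.charP_of_even K (by rw [hK]; exact hq2.pow_of_ne_zero three_ne_zero)
          exact CharP.cast_eq_zero K 2
        exact h.elim e (ExcRows.d4 K q h20 (by rw [Nat.card_eq_fintype_card]; exact hK) h2)
    · exact wide_elim h hna (R.twistedD4odd K q hq hq2 hK) e
  · exact Or.inr (Or.inr (Or.inr (Or.inl h1)))
  · obtain ⟨K, i1, i2, m, hm, hK, ⟨e⟩⟩ := h1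
    exact wide_elim h hna (R.ree K m hm hK) e
  · obtain ⟨K, i1, i2, m, hm, hK, ⟨e⟩⟩ := h1
    exact h.elim e (ExcRows.f4 K m hm (by rw [Nat.card_eq_fintype_card]; exact hK))
  · obtain ⟨e⟩ := h1
    refine Or.inr (Or.inr (Or.inr (Or.inr (Or.inr (Or.inr (Or.inl ⟨inferInstance, ?_⟩))))))
    rw [Nat.card_congr e.toEquiv, S1074.result.2.2.2]
    norm_num

theorem list_spor (R : Rows) (hna : ¬ IsMulCommutative G) (h : IsThin G) (hA : IsSporadicGroup G) :
    OnThinList G := by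
  rcases hA with h1 | h1 | h1 | h1 | h1 | h1 | h1 | h1 | h1 | h1 | h1 | h1 | h1 | h1 | h1 | h1 | h1 | h1 | h1 | h1 | h1 | h1 | h1 | h1 | h1 | h1
  · exact Or.inr (Or.inr (Or.inr (Or.inr (Or.inr (Or.inr (Or.inr (Or.inr (Or.inl h1))))))))
  · obtain ⟨e⟩ := h1; exact h.elim3 e Mathieu.m12
  · obtain ⟨e⟩ := h1; exact h.elim3 e Mathieu.m22
  · obtain ⟨e⟩ := h1; exact h.elim3 e Mathieu.m23
  · obtain ⟨e⟩ := h1; exact h.elim3 e Mathieu.m24
  · exact Or.inr (Or.inr (Or.inr (Or.inr (Or.inr (Or.inr (Or.inr (Or.inr (Or.inr h1))))))))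
  · obtain ⟨e⟩ := h1; exact h.elim3 e JTwo.wit
  · exact (h.not_wit Nat.prime_three (by norm_num) (JThree.wit h1)).elim
  · obtain ⟨e⟩ := h1; exact h.elim3 e JFour.j4
  · obtain ⟨e⟩ := h1; exact wide_elim h hna R.co1 e
  · obtain ⟨e⟩ := h1; exact wide_elim h hna R.co2 e
  · obtain ⟨e⟩ := h1; exact wide_elim h hna R.co3 e
  · obtain ⟨e⟩ := h1; exact h.elim3 e Leech.mcl
  · obtain ⟨e⟩ := h1; exact h.elim3 e Leech.hs
  · obtain ⟨e⟩ := h1; exact wide_elim h hna R.suz e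
  · obtain ⟨e⟩ := h1; exact h.elim3 e Held.he
  · obtain ⟨e⟩ := h1; exact h.elim3 e Rud.ru
  · obtain ⟨e⟩ := h1; exact h.elim3 e (ONan.on' ((MulEquiv.isSimpleGroup_congr e).1 inferInstance))
  · obtain ⟨e⟩ := h1; exact wide_elim h hna R.ly e
  · obtain ⟨e⟩ := h1; exact wide_elim h hna R.fi22 e
  · obtain ⟨e⟩ := h1; exact wide_elim h hna R.fi23 e
  · obtain ⟨e⟩ := h1; exact wide_elim h hna R.fi24 e
  · obtain ⟨e⟩ := h1; exact wide_elim h hna R.hn e
  · obtain ⟨e⟩ := h1; exact wide_elim h hna R.th e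
  · obtain ⟨e⟩ := h1; exact wide_elim h hna R.b e
  · obtain ⟨e⟩ := h1; exact wide_elim h hna R.m e

/-- **The thin known simple groups.** -/
theorem onThinList (R : Rows) (hna : ¬ IsMulCommutative G) (h : IsThin G) (hK : IsKnownSimple' G) : OnThinList G := by
  rcases hK with h1 | h1 | h1 | h1 | h1 | h1 | h1 | h1 | h1 | h1
  · exfalso
    apply hna
    have hp : Fact (Nat.card G).Prime := ⟨h1⟩
    have : IsCyclic G := isCyclic_of_prime_card (p := Nat.card G) rfl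
    exact IsCyclic.isMulCommutative
  · exact list_alt h h1
  · exact list_psl h h1
  · exact list_psp h h1
  · exact list_psu R hna h h1
  · obtain ⟨F, i1, i2, m, hm, hF, ⟨e⟩⟩ := h1
    exact wide_elim h hna (R.omegaOdd F m hF hm) e
  · obtain ⟨F, i1, i2, m, hm, ⟨e⟩⟩ := h1
    exact wide_elim h hna (R.omegaPlus F m hm) e
  · obtain ⟨F, i1, i2, m, a, b, hm, hab, ⟨e⟩⟩ := h1
    exact wide_elim h hna (R.omegaMinus F m a b hm hab) e
  · exact list_exc R hna h h1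
  · exact list_spor R hna h h1

end Cfsg.Agent.H45.Thin
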