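import Cfsg.Agent.H45.Thin.Mathieu
import Cfsg.Agent.J4.LowerBound
import Cfsg.Agent.J4.Pres

/-!
# Thin groups (S2028): `M₂₄` in `J₄` (helper45)
-/

set_option autoImplicit false

namespace Cfsg.Agent.H45.Thin.JFour

open Cfsg Subgroup
open Cfsg.Agent.ETable (Wit)
open Cfsg.Agent.J4.Pres Cfsg.Agent.J4.Rep112

theorem phi_injective : Function.Injective phi := by
  have hsimple : IsSimpleGroup M24 := Cfsg.Agent.S0365.result
  rw [← MonoidHom.ker_eq_bot_iff]
  rcases hsimple.eq_bot_or_eq_top_of_normal phi.ker inferInstance with h | h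
  · exact h
  · exfalso
    have h1 : phi Cfsg.Agent.J4.M24Hom.XM = 1 := by
      rw [← MonoidHom.mem_ker, h]
      exact mem_top _
    rw [phi_X] at h1
    have h2 : rho x = 1 := by rw [h1, map_one]
    exact Cfsg.Agent.J4.Lower.xg_ne h2

/-- **`J₄`.** -/
theorem j4 : Wit 3 2 Spor.J4 := Mathieu.m24.of_injective phi phi_injective

end Cfsg.Agent.H45.Thin.JFour
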