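import Cfsg.Agent.H45.Thin.Base
import Cfsg.Agent.ETable.OrthBase

/-!
# Thin groups (S2028): `PSL_n(q)` (helper45)

* `wit_quot_two` : two elements of a central extension;
* `psl3_torus`, `psl3_nine`, `psl3_char` : `PSL_3(q)`;
* `psl3` : `PSL_3(q)` has a witness unless `q` is `2`, `4` or a prime `2 ^ a 3 ^ b + 1`, `b ≤ 1`;
* `psl_two_blocks` : `PSL_n(q)`, `q` even, `n ≥ 4`; `psl_four_odd'` : `PSL_4(q)`, `q` odd.
-/

set_option autoImplicit false

namespace Cfsg.Agent.H45.Thin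

open Cfsg Subgroup Matrix
open Cfsg.Agent.ETable

theorem wit_quot_two {G : Type*} [Group G] (Z : Subgroup G) [Z.Normal] {p : ℕ} (hp : p.Prime) {x y : G}
    (hxp : x ^ p ∈ Z) (hyp : y ^ p ∈ Z) (hx1 : x ∉ Z) (hyx : ∀ n : ℤ, y * x ^ n ∉ Z) (hxy : x * y = y * x)
    (T : Subgroup G) (hT : IsPGroup 2 T) (hT1 : ¬ T ≤ Z) (hnx : x ∈ normalizer (T : Set G))
    (hny : y ∈ normalizer (T : Set G)) : Wit p 2 (G ⧸ Z) := by
  let π : G →* G ⧸ Z := QuotientGroup.mk' Z
  have hπ : ∀ g : G, π g = 1 ↔ g ∈ Z := fun g => by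
    rw [QuotientGroup.mk'_apply, QuotientGroup.eq_one_iff]
  refine wit_of_two hp (x := π x) (y := π y) ?_ ?_ ?_ ?_ ?_ (T.map π) (hT.map _) ?_ ?_ ?_
  · rw [← map_pow]
    exact (hπ _).2 hxp
  · exact fun h => hx1 ((hπ _).1 h)
  · rw [← map_pow]
    exact (hπ _).2 hyp
  · rintro ⟨n, hn⟩
    have hn' : π x ^ n = π y := hn
    apply hyx (-n)
    rw [← hπ, map_mul, map_zpow, ← hn', ← _root_.zpow_add, add_neg_cancel, _root_.zpow_zero]
  · rw [← map_mul, hxy, map_mul]
  · intro h0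
    rw [Subgroup.map_eq_bot_iff, QuotientGroup.ker_mk'] at h0
    exact hT1 h0
  · exact Subgroup.le_normalizer_map π ⟨x, hnx, rfl⟩
  · exact Subgroup.le_normalizer_map π ⟨y, hny, rfl⟩

section psl3

variable {F : Type*} [Field F]

theorem dSL_mul {n : ℕ} {d e : Fin n → F} (hd : ∏ i, d i = 1) (he : ∏ i, e i = 1) :
    dSL d hd * dSL e he = dSL (fun i => d i * e i) (by rw [Finset.prod_mul_distrib, hd, he, one_mul]) :=
  Subtype.ext (by
    show diagonal d * diagonal e = diagonal _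
    rw [diagonal_mul_diagonal])

theorem dSL_one {n : ℕ} : dSL (fun _ : Fin n => (1 : F)) (by simp) = 1 :=
  Subtype.ext (by
    show diagonal _ = 1
    rw [← diagonal_one])

theorem dSL_pow {n : ℕ} {d : Fin n → F} (hd : ∏ i, d i = 1) (k : ℕ) :
    dSL d hd ^ k = dSL (fun i => d i ^ k) (by rw [Finset.prod_pow, hd, one_pow]) := by
  induction k with
  | zero =>
    rw [pow_zero, ← dSL_one]
    congr 1
    funext i
    exact (pow_zero _).symm
  | succ k ih =>
    rw [pow_succ, ih, dSL_mul]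
    congr 1
    funext i
    exact (pow_succ _ _).symm

theorem dSL_inv {n : ℕ} {d : Fin n → F} (hd : ∏ i, d i = 1) :
    (dSL d hd)⁻¹ = dSL (fun i => (d i)⁻¹) (by rw [Finset.prod_inv_distrib, hd, inv_one]) := by
  rw [inv_eq_iff_mul_eq_one, dSL_mul]
  have h0 : ∀ i, d i ≠ 0 := by
    intro i h
    have : ∏ i, d i = 0 := Finset.prod_eq_zero (Finset.mem_univ i) h
    rw [hd] at this
    exact one_ne_zero this
  rw [← dSL_one]
  congr 1
  funext i
  exact mul_inv_cancel₀ (h0 i)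

theorem dSL_zpow {n : ℕ} {d : Fin n → F} (hd : ∏ i, d i = 1) (k : ℤ) :
    dSL d hd ^ k = dSL (fun i => d i ^ k) (by rw [Finset.prod_zpow, hd, _root_.one_zpow]) := by
  rcases k with k | k
  · simp only [Int.ofNat_eq_natCast, _root_.zpow_natCast]
    exact dSL_pow hd k
  · simp only [_root_.zpow_negSucc]
    rw [dSL_pow hd, dSL_inv]

theorem dSL_mem_center_iff {n : ℕ} {d : Fin n → F} (hd : ∏ i, d i = 1) :
    dSL d hd ∈ center (SpecialLinearGroup (Fin n) F) ↔ ∀ i j, d i = d j := by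
  rw [Matrix.SpecialLinearGroup.mem_center_iff]
  constructor
  · rintro ⟨r, -, h⟩ i j
    have h1 : ∀ i, r = d i := by
      intro i
      have h2 : scalar (Fin n) r = diagonal d := h
      have := congrFun (congrFun h2 i) i
      simpa [scalar_apply] using this
    rw [← h1, ← h1]
  · intro h
    rcases n with _ | n
    · exact ⟨1, by simp, by
        ext i
        exact i.elim0⟩
    · refine ⟨d 0, ?_, ?_⟩
      · rw [← hd, Finset.prod_congr rfl (fun i _ => h i 0), Finset.prod_const, Finset.card_univ]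
      · show scalar (Fin (n + 1)) (d 0) = diagonal d
        rw [scalar_apply]
        congr 1
        funext i
        exact h 0 i

/-- the diagonal criterion for `PSL_3` -/
theorem psl3_diag {p : ℕ} (hp : p.Prime) (d e : Fin 3 → F) (hd : ∏ i, d i = 1) (he : ∏ i, e i = 1)
    (hdp : ∀ i j, d i ^ p = d j ^ p) (hep : ∀ i j, e i ^ p = e j ^ p) (hd1 : ¬ ∀ i j, d i = d j)
    (hde : ∀ n : ℤ, ¬ ∀ i j, e i * d i ^ n = e j * d j ^ n) : Wit p 2 (ProjectiveSpecialLinearGroup (Fin 3) F) := by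
  have hx : (dSL d hd) ^ p ∈ center (SpecialLinearGroup (Fin 3) F) := by
    rw [dSL_pow, dSL_mem_center_iff]
    exact hdp
  have hy : (dSL e he) ^ p ∈ center (SpecialLinearGroup (Fin 3) F) := by
    rw [dSL_pow, dSL_mem_center_iff]
    exact hep
  have hx1 : dSL d hd ∉ center (SpecialLinearGroup (Fin 3) F) := by
    rw [dSL_mem_center_iff]
    exact hd1
  have hyx : ∀ n : ℤ, dSL e he * dSL d hd ^ n ∉ center (SpecialLinearGroup (Fin 3) F) := by
    intro n
    rw [dSL_zpow, dSL_mul, dSL_mem_center_iff]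
    exact hde n
  have hxy : dSL d hd * dSL e he = dSL e he * dSL d hd := by
    rw [dSL_mul, dSL_mul]
    congr 1
    funext i
    exact mul_comm _ _
  by_cases h2 : (2 : F) = 0
  · have hst : ∀ i : Fin 3, i = 0 → ¬ i = 1 := by rintro i rfl; decide
    refine wit_quot_two (center _) hp hx hy hx1 hyx hxy
      (radT (repSL 3 F) (dgI F (· = 0)) (dgI F (· = 1)) (dgI_mul_eq_zero hst))
      (isPGroup_radT (repSL_injective _ _) (two_eq_zero_matrix h2)) ?_ ?_ ?_
    · intro h0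
      exact tvSL_not_center (i := (0 : Fin 3)) (j := 1) (by decide) (one_ne_zero (α := F))
        (h0 (tvSL_mem_radT (by decide) (1 : F) hst rfl rfl))
    · exact normalizer_radT (diagonal_mul_dgI d) (diagonal_mul_dgI d)
    · exact normalizer_radT (diagonal_mul_dgI e) (diagonal_mul_dgI e)
  · have ht : ∏ i, (![-1, -1, 1] : Fin 3 → F) i = 1 := by
      simp [Fin.prod_univ_three]
    have hcom : ∀ (f : Fin 3 → F) (hf : ∏ i, f i = 1),
        dSL f hf ∈ normalizer (zpowers (dSL ![-1, -1, 1] ht) : Set (SpecialLinearGroup (Fin 3) F)) := by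
      intro f hf
      refine Subgroup.centralizer_le_normalizer _ ?_
      rw [Subgroup.mem_centralizer_iff]
      rintro g hg
      obtain ⟨k, rfl⟩ := mem_zpowers_iff.1 hg
      rw [dSL_zpow, dSL_mul, dSL_mul]
      congr 1
      funext i
      exact mul_comm _ _
    refine wit_quot_two (center _) hp hx hy hx1 hyx hxy (zpowers (dSL ![-1, -1, 1] ht)) (zpowers_two ?_) ?_
      (hcom d hd) (hcom e he)
    · rw [dSL_mul, ← dSL_one]
      congr 1
      funext i
      fin_cases i <;> simp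
    · intro h0
      have h1 := h0 (mem_zpowers _)
      rw [dSL_mem_center_iff] at h1
      have h3 := h1 0 2
      simp at h3
      exact h2 (by linear_combination -h3)

/-- exponents for the two torus elements, `p ≠ 3` -/
theorem torus_key {p : ℕ} (hp : p.Prime) (hp3 : p ≠ 3) {c : F} (hc : c ^ p = 1) (hc1 : c ≠ 1) (n : ℤ) :
    ¬ ∀ i j : Fin 3, (![1, c, c⁻¹] : Fin 3 → F) i * (![c, c⁻¹, 1] : Fin 3 → F) i ^ n =
      (![1, c, c⁻¹] : Fin 3 → F) j * (![c, c⁻¹, 1] : Fin 3 → F) j ^ n := by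
  intro h
  have hc0 : c ≠ 0 := by
    rintro rfl
    rw [zero_pow hp.ne_zero] at hc
    exact zero_ne_one hc
  have h1 := h 0 2
  have h2 := h 1 2
  simp only [Matrix.cons_val_zero, Matrix.cons_val_one, Matrix.cons_val, one_mul, _root_.one_zpow, mul_one] at h1 h2
  -- c ^ n = c⁻¹, c * c⁻¹ ^ n = c⁻¹
  rw [_root_.inv_zpow, h1, inv_inv] at h2
  have h3 : c ^ 3 = 1 := by
    calc c ^ 3 = c * c * c := by ring
      _ = c⁻¹ * c := by rw [h2]
      _ = 1 := inv_mul_cancel₀ hc0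
  have h5 : orderOf c = p := by
    have : Fact p.Prime := ⟨hp⟩
    exact orderOf_eq_prime hc hc1
  have h6 : p ∣ 3 := by
    rw [← h5]
    exact orderOf_dvd_of_pow_eq_one h3
  exact hp3 ((Nat.prime_dvd_prime_iff_eq hp Nat.prime_three).1 h6)

theorem nine_key {c : F} (hc : c ^ 9 = 1) (hc1 : c ^ 3 ≠ 1) (n : ℤ) :
    ¬ ∀ i j : Fin 3, (![c, c, c⁻¹ ^ 2] : Fin 3 → F) i * (![c ^ 3, 1, c⁻¹ ^ 3] : Fin 3 → F) i ^ n =
      (![c, c, c⁻¹ ^ 2] : Fin 3 → F) j * (![c ^ 3, 1, c⁻¹ ^ 3] : Fin 3 → F) j ^ n := by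
  intro h
  have hc0 : c ≠ 0 := by
    rintro rfl
    rw [zero_pow (by norm_num)] at hc
    exact zero_ne_one hc
  have h1 := h 0 1
  have h2 := h 2 1
  simp only [Matrix.cons_val_zero, Matrix.cons_val_one, Matrix.cons_val, one_mul, _root_.one_zpow, mul_one] at h1 h2
  have h3 : (c ^ 3) ^ n = 1 := by
    have := mul_left_cancel₀ hc0 (h1.trans (mul_one c).symm)
    exact this
  rw [inv_pow c 3, _root_.inv_zpow, h3, inv_one, mul_one] at h2
  apply hc1
  calc c ^ 3 = c ^ 2 * c := by ring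
    _ = c ^ 2 * c⁻¹ ^ 2 := by rw [h2]
    _ = 1 := by rw [← mul_pow, mul_inv_cancel₀ hc0, one_pow]

theorem psl3_torus {p : ℕ} (hp : p.Prime) (hp3 : p ≠ 3) {c : F} (hc : c ^ p = 1) (hc1 : c ≠ 1) :
    Wit p 2 (ProjectiveSpecialLinearGroup (Fin 3) F) := by
  have hc0 : c ≠ 0 := by
    rintro rfl
    rw [zero_pow hp.ne_zero] at hc
    exact zero_ne_one hc
  refine psl3_diag hp ![c, c⁻¹, 1] ![1, c, c⁻¹] ?_ ?_ ?_ ?_ ?_ (torus_key hp hp3 hc hc1)
  · simp [Fin.prod_univ_three, hc0]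
  · simp [Fin.prod_univ_three, hc0]
  · intro i j
    fin_cases i <;> fin_cases j <;> simp [hc]
  · intro i j
    fin_cases i <;> fin_cases j <;> simp [hc]
  · intro h
    have := h 0 2
    simp at this
    exact hc1 this

theorem psl3_nine {c : F} (hc : c ^ 9 = 1) (hc1 : c ^ 3 ≠ 1) :
    Wit 3 2 (ProjectiveSpecialLinearGroup (Fin 3) F) := by
  have hc0 : c ≠ 0 := by
    rintro rfl
    rw [zero_pow (by norm_num)] at hc
    exact zero_ne_one hc
  refine psl3_diag Nat.prime_three ![c ^ 3, 1, c⁻¹ ^ 3] ![c, c, c⁻¹ ^ 2] ?_ ?_ ?_ ?_ ?_ (nine_key hc hc1)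
  · simp [Fin.prod_univ_three, hc0]
  · rw [Fin.prod_univ_three]
    simp only [Matrix.cons_val_zero, Matrix.cons_val_one, Matrix.cons_val]
    field_simp
  · have e1 : (c ^ 3) ^ 3 = 1 := by rw [← pow_mul]; exact hc
    have e2 : (c⁻¹ ^ 3) ^ 3 = 1 := by rw [← pow_mul, inv_pow]; norm_num; exact hc
    intro i j
    fin_cases i <;> fin_cases j <;> simp only [Fin.zero_eta, Fin.mk_one, Fin.reduceFinMk, Matrix.cons_val_zero,
      Matrix.cons_val_one, Matrix.cons_val, e1, e2, one_pow]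
  · have e2 : (c⁻¹ ^ 2) ^ 3 = c ^ 3 := by
      have h1 : c⁻¹ ^ 9 = 1 := by rw [inv_pow, hc, inv_one]
      calc (c⁻¹ ^ 2) ^ 3 = c⁻¹ ^ 6 := by ring
        _ = c⁻¹ ^ 6 * (c⁻¹ ^ 3 * c ^ 3) := by rw [← mul_pow, inv_mul_cancel₀ hc0, one_pow, mul_one]
        _ = c⁻¹ ^ 9 * c ^ 3 := by ring
        _ = c ^ 3 := by rw [h1, one_mul]
    intro i j
    fin_cases i <;> fin_cases j <;> simp only [Fin.zero_eta, Fin.mk_one, Fin.reduceFinMk, Matrix.cons_val_zero,
      Matrix.cons_val_one, Matrix.cons_val, e2]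
  · intro h
    have := h 0 1
    simp only [Matrix.cons_val_zero, Matrix.cons_val_one] at this
    exact hc1 this

/-- `PSL_3(q)`, `q` odd, not a prime -/
theorem psl3_char [Finite F] {p : ℕ} [CharP F p] (hp2 : p ≠ 2) (hq : Nat.card F ≠ p) :
    Wit p 2 (ProjectiveSpecialLinearGroup (Fin 3) F) := by
  have hp : p.Prime := CharP.char_is_prime F p
  have h2 : (2 : F) ≠ 0 := by
    intro h
    have h1 : (p : ℕ) ∣ 2 := (CharP.cast_eq_zero_iff F p 2).1 (by exact_mod_cast h)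
    exact hp2 ((Nat.prime_dvd_prime_iff_eq hp Nat.prime_two).1 h1)
  refine psl_of_diag (r := 1) (s := 2) (a := ![0]) (b := ![1]) (d := ![-1, -1, 1]) ?_ ?_ ?_ ?_ ?_ (i₀ := 0) (j₀ := 2)
    ?_ ?_
  · intro i j
    fin_cases i; fin_cases j; decide
  · intro i j _
    exact Subsingleton.elim i j
  · simp [Fin.prod_univ_three]
  · intro i
    fin_cases i <;> simp
  · intro i
    fin_cases i; simp
  · simp
    intro h
    exact h2 (by linear_combination -h)
  · rw [pow_one]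
    exact sq_le_card_of_charP F p hq

/-- `PSL_4(q)`, `q` odd -/
theorem psl4_char [Finite F] {p : ℕ} [CharP F p] (hp2 : p ≠ 2) :
    Wit p 2 (ProjectiveSpecialLinearGroup (Fin 4) F) := by
  have hp : p.Prime := CharP.char_is_prime F p
  have h2 : (2 : F) ≠ 0 := by
    intro h
    have h1 : (p : ℕ) ∣ 2 := (CharP.cast_eq_zero_iff F p 2).1 (by exact_mod_cast h)
    exact hp2 ((Nat.prime_dvd_prime_iff_eq hp Nat.prime_two).1 h1)
  refine psl_of_diag (r := 2) (s := 2) (a := ![0, 2]) (b := ![1, 3])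
    (d := ![-1, -1, 1, 1]) ?_ ?_ ?_ ?_ ?_ (i₀ := 0) (j₀ := 2) ?_ ?_
  · intro i j
    fin_cases i <;> fin_cases j <;> decide
  · intro i j hij
    fin_cases i <;> fin_cases j <;> first | rfl | (exfalso; revert hij; decide)
  · simp [Fin.prod_univ_four]
  · intro i
    fin_cases i <;> simp
  · intro i
    fin_cases i <;> simp
  · simp
    intro h
    exact h2 (by linear_combination -h)
  · exact Nat.pow_le_pow_left (le_card_of_charP F p) 2

end psl3

end Cfsg.Agent.H45.Thin
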